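import Mathlib.GroupTheory.OrderOfElement
import Cfsg.Agent.Solv.Core

/-!
Local balance: the abstract argument.
-/

set_option autoImplicit false

namespace Cfsg.Agent.BalC

variable {T : Type*} [Group T] [Finite T]

/-- the fixed points -/
abbrev fixS (x : MulAut T) : Subgroup T := MonoidHom.eqLocus x.toMonoidHom (MonoidHom.id T)

omit [Finite T] in
theorem mem_fixS {x : MulAut T} {t : T} : t ∈ fixS x ↔ x t = t := Iff.rfl

theorem finite_aut : Finite (MulAut T) := Finite.of_injective (fun a : MulAut T => (a : T → T)) (fun _ _ h => MulEquiv.ext (congrFun h))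

variable {p : ℕ} [hp : Fact p.Prime] {A : Subgroup (MulAut T)} (hinn : ∀ t : T, MulAut.conj t ∈ A)
  (hZ : Function.Injective (MulAut.conj : T →* MulAut T)) {x : MulAut T}

include hinn hZ

/-- if the fixed points form a nontrivial `p'`-group, the core of the centralizer is nontrivial -/
theorem core_ne_bot (hcop : Nat.Coprime p (Nat.card (fixS x))) (hne : fixS x ≠ ⊥) :
    Cfsg.pPrimeCore p ↥(A ⊓ Subgroup.centralizer {x}) ≠ ⊥ := by
  have hfin : Finite (MulAut T) := finite_aut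
  -- the conjugations by fixed points commute with x
  have hmem : ∀ t ∈ fixS x, MulAut.conj t ∈ A ⊓ Subgroup.centralizer {x} := by
    intro t ht
    refine ⟨hinn t, Subgroup.mem_centralizer_singleton_iff.2 ?_⟩
    ext s
    change t * x s * t⁻¹ = x (t * s * t⁻¹)
    rw [map_mul, map_mul, map_inv, mem_fixS.1 ht]
  let φ : fixS x →* ↥(A ⊓ Subgroup.centralizer {x}) :=
    (MulAut.conj.comp (fixS x).subtype).codRestrict _ (fun t => hmem t t.2)
  have hφ : Function.Injective φ := by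
    intro a b h
    have := congrArg Subtype.val h
    exact Subtype.ext (hZ this)
  set N := φ.range with hN
  have hNn : N.Normal := by
    refine ⟨?_⟩
    rintro _ ⟨t, rfl⟩ g
    have hg := Subgroup.mem_centralizer_singleton_iff.1 g.2.2
    refine ⟨⟨(g : MulAut T) (t : T), ?_⟩, Subtype.ext ?_⟩
    · rw [mem_fixS]
      have h1 : x ((g : MulAut T) (t : T)) = (g : MulAut T) (x (t : T)) := DFunLike.congr_fun hg.symm (t : T)
      rw [h1, mem_fixS.1 t.2]
    · ext s
      change (g : MulAut T) (t : T) * s * ((g : MulAut T) (t : T))⁻¹ =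
        (g : MulAut T) ((t : T) * (g : MulAut T)⁻¹ s * (t : T)⁻¹)
      rw [map_mul, map_mul, map_inv, MulAut.apply_inv_self]
  have hNc : (Nat.card N).Coprime p := by
    have : Nat.card N = Nat.card (fixS x) := (Nat.card_congr (MonoidHom.ofInjective hφ).toEquiv).symm
    rw [this]
    exact hcop.symm
  intro h
  have h1 : N ≤ Cfsg.pPrimeCore p ↥(A ⊓ Subgroup.centralizer {x}) := le_sSup ⟨hNn, hNc⟩
  rw [h, le_bot_iff] at h1
  apply hne
  rw [Subgroup.eq_bot_iff_forall]
  intro t ht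
  have h2 : φ ⟨t, ht⟩ ∈ N := ⟨_, rfl⟩
  rw [h1, Subgroup.mem_bot] at h2
  have h3 := hφ (h2.trans φ.map_one.symm)
  exact congrArg Subtype.val h3

/-- a simple subgroup of the fixed points with trivial centralizer modulo `x` kills the core -/
theorem core_eq_bot (hord : orderOf x = p) {L : Subgroup T} (hL1 : L ≤ fixS x) (hL2 : IsSimpleGroup L)
    (hL3 : ∀ α ∈ A, α * x = x * α → ∀ l ∈ L, α l ∈ L)
    (hL4 : ∀ α ∈ A, α * x = x * α → (∀ l ∈ L, α l = l) → α ∈ Subgroup.zpowers x)
    (hL5 : p ∣ Nat.card L) : Cfsg.pPrimeCore p ↥(A ⊓ Subgroup.centralizer {x}) = ⊥ := by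
  have hfin : Finite (MulAut T) := finite_aut
  set C := A ⊓ Subgroup.centralizer {x} with hC
  set W := Cfsg.pPrimeCore p ↥C with hW
  have hWc : (Nat.card W).Coprime p := Cfsg.Agent.Solv.pPrimeCore_card_coprime p
  have hWn : W.Normal := Cfsg.Agent.Solv.pPrimeCore_normal p
  have hmem : ∀ t ∈ L, MulAut.conj t ∈ C := by
    intro t ht
    refine ⟨hinn t, Subgroup.mem_centralizer_singleton_iff.2 ?_⟩
    ext s
    change t * x s * t⁻¹ = x (t * s * t⁻¹)
    rw [map_mul, map_mul, map_inv, mem_fixS.1 (hL1 ht)]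
  let φ : L →* ↥C := (MulAut.conj.comp L.subtype).codRestrict _ (fun t => hmem t t.2)
  have hφ : Function.Injective φ := by
    intro a b h
    have := congrArg Subtype.val h
    exact Subtype.ext (hZ this)
  have hcomm : ∀ w : ↥C, (w : MulAut T) * x = x * (w : MulAut T) := fun w =>
    Subgroup.mem_centralizer_singleton_iff.1 w.2.2
  have hK : (W.comap φ).Normal := hWn.comap φ
  have hbot : W.comap φ = ⊥ := by
    rcases hK.eq_bot_or_eq_top with h | h
    · exact h
    · exfalso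
      have h1 : φ.range ≤ W := by
        rintro _ ⟨l, rfl⟩
        have : l ∈ W.comap φ := by rw [h]; trivial
        exact this
      have h2 : Nat.card φ.range = Nat.card L := (Nat.card_congr (MonoidHom.ofInjective hφ).toEquiv).symm
      have h3 : Nat.card φ.range ∣ Nat.card W := Subgroup.card_dvd_of_le h1
      rw [h2] at h3
      have h4 : p ∣ Nat.card W := hL5.trans h3
      have h5 := Nat.Coprime.eq_one_of_dvd hWc.symm h4
      exact hp.out.one_lt.ne' h5
  rw [Subgroup.eq_bot_iff_forall]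
  intro w hw
  -- w centralises L
  have hcent : ∀ l ∈ L, (w : MulAut T) l = l := by
    intro l hl
    have hwl := hL3 w w.2.1 (hcomm w) l hl
    have h1 : w * φ ⟨l, hl⟩ * w⁻¹ * (φ ⟨l, hl⟩)⁻¹ ∈ W := by
      have h2 : φ ⟨l, hl⟩ * w⁻¹ * (φ ⟨l, hl⟩)⁻¹ ∈ W := hWn.conj_mem _ (W.inv_mem hw) _
      have h3 := W.mul_mem hw h2
      rwa [← mul_assoc, ← mul_assoc] at h3
    have h2 : w * φ ⟨l, hl⟩ * w⁻¹ * (φ ⟨l, hl⟩)⁻¹ = φ (⟨(w : MulAut T) l, hwl⟩ * ⟨l, hl⟩⁻¹) := by
      apply Subtype.ext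
      ext s
      change (w : MulAut T) (l * (w : MulAut T)⁻¹ (l⁻¹ * s * l) * l⁻¹) =
        (w : MulAut T) l * l⁻¹ * s * ((w : MulAut T) l * l⁻¹)⁻¹
      rw [map_mul, map_mul, map_inv, MulAut.apply_inv_self]
      group
    rw [h2] at h1
    have h3 : (⟨(w : MulAut T) l, hwl⟩ * ⟨l, hl⟩⁻¹ : L) ∈ W.comap φ := h1
    rw [hbot, Subgroup.mem_bot, mul_inv_eq_one] at h3
    exact congrArg Subtype.val h3
  have h1 := hL4 w w.2.1 (hcomm w) hcent
  have h2 : orderOf w ∣ p := by
    have h3 : orderOf (w : MulAut T) ∣ p := by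
      have := orderOf_dvd_of_mem_zpowers h1
      rwa [hord] at this
    rwa [Subgroup.orderOf_coe] at h3
  have h3 : orderOf w ∣ Nat.card W := by
    have := orderOf_dvd_natCard (⟨w, hw⟩ : W)
    rwa [← Subgroup.orderOf_coe] at this
  have h4 := Nat.dvd_gcd h3 h2
  rw [Nat.Coprime.gcd_eq_one hWc, Nat.dvd_one, orderOf_eq_one_iff] at h4
  exact h4

/-- **the criterion** -/
theorem balance_iff (hord : orderOf x = p) {L : Subgroup T} (hL1 : L ≤ fixS x) (hL2 : IsSimpleGroup L)
    (hL3 : ∀ α ∈ A, α * x = x * α → ∀ l ∈ L, α l ∈ L)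
    (hL4 : ∀ α ∈ A, α * x = x * α → (∀ l ∈ L, α l = l) → α ∈ Subgroup.zpowers x)
    (hL5 : p ∣ Nat.card (fixS x) → p ∣ Nat.card L) :
    Cfsg.pPrimeCore p ↥(A ⊓ Subgroup.centralizer {x}) ≠ ⊥ ↔ Nat.Coprime p (Nat.card (fixS x)) := by
  constructor
  · intro h
    by_contra hcop
    rw [Nat.Prime.coprime_iff_not_dvd hp.out, not_not] at hcop
    exact h (core_eq_bot hinn hZ hord hL1 hL2 hL3 hL4 (hL5 hcop))
  · intro h
    refine core_ne_bot hinn hZ h fun h1 => ?_
    rw [h1, le_bot_iff] at hL1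
    have : Nontrivial L := hL2.toNontrivial
    rw [hL1] at this
    exact not_nontrivial _ this

end Cfsg.Agent.BalC
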