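import Cfsg.Agent.BalC.Res

/-!
Local balance for field automorphisms of `PΩ(Q)`.
-/

set_option autoImplicit false

namespace Cfsg.Agent.BalC

open QuadraticMap Cfsg.Agent.ClassO Cfsg.Agent.AutLie Cfsg.Agent.AutO
open Cfsg.Agent.Orth hiding map_mul two_ne_zero_of_odd

section ctr
variable {F V : Type*} [Field F] [AddCommGroup V] [Module F V] [FiniteDimensional F V]
  {Q : QuadraticForm F V} [hG : Good Q]

/-- central elements are scalars -/
theorem mk_eq_one_iff (g : Om Q) : mk Q g = 1 ↔ ∃ c : F, ∀ v, ((g : OGrp Q) : V ≃ₗ[F] V) v = c • v := by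
  obtain ⟨e, f, hyp⟩ := hG.hyp
  refine (QuotientGroup.eq_one_iff _).trans ?_
  exact mem_center_iff_scalar hG.nd hG.rg hyp _ (commutator_eq_EGrp hG.nd hG.rg hyp) g

theorem simple_T : IsSimpleGroup (T Q) := by
  obtain ⟨e, f, hyp⟩ := hG.hyp
  exact isSimple_abs hG.nd hG.rg hyp _ (commutator_eq_EGrp hG.nd hG.rg hyp)

end ctr

section res
variable {K F V : Type*} [Field K] [Field F] [Finite F] [AddCommGroup V] [Module F V] [FiniteDimensional F V]
  {κ : Type*} [Fintype κ] [DecidableEq κ] {j : K →+* F} {σ : RingAut F} (hj : ∀ x, σ x = x ↔ x ∈ Set.range j)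
  {S0 : QuadraticForm K (κ → K)} {S : QuadraticForm F (κ → F)} (hS : IsBC j S0 S)
  {Q : QuadraticForm F V} {f0 : GamO Q} {e : (κ → F) ≃ₗ[F] V} {d : Fˣ} (h : IsFm σ S Q f0 e d)

/-- extension of isometries -/
noncomputable def eO (hS : IsBC j S0 S) (h : IsFm σ S Q f0 e d) : OGrp S0 →* OGrp Q := (trO e d h.q).comp (extO hS)

omit [Finite F] [FiniteDimensional F V] in
theorem eO_bv (g : OGrp S0) (w : κ → K) :
    (eO hS h g : V ≃ₗ[F] V) (e (bv j w)) = e (bv j ((g : (κ → K) ≃ₗ[K] (κ → K)) w)) := by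
  change (trO e d h.q (extO hS g) : V ≃ₗ[F] V) (e (bv j w)) = _
  rw [trO_apply, extO_bv]

omit [Finite F] [FiniteDimensional F V] in
/-- isometries agreeing on rational vectors -/
theorem isom_ext_e {A B : OGrp Q} (H : ∀ w : κ → K, (A : V ≃ₗ[F] V) (e (bv j w)) = (B : V ≃ₗ[F] V) (e (bv j w))) :
    A = B := by
  refine OGrp_ext fun v => ?_
  obtain ⟨u, rfl⟩ := e.surjective v
  have h1 : ((A : V ≃ₗ[F] V) : V →ₗ[F] V).comp (e : (κ → F) →ₗ[F] V) = ((B : V ≃ₗ[F] V) : V →ₗ[F] V).comp (e : (κ → F) →ₗ[F] V) :=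
    lin_ext_bv j H
  exact LinearMap.congr_fun h1 u

omit [Finite F] [FiniteDimensional F V] in
theorem eO_injective : Function.Injective (eO hS h) := by
  intro a b hab
  refine OGrp_ext fun w => ?_
  have h1 := eO_bv hS h a w
  rw [hab, eO_bv] at h1
  exact (bv_injective j (e.injective h1)).symm

/-- extension on `Ω` -/
noncomputable def eOm (hS : IsBC j S0 S) (h : IsFm σ S Q f0 e d) : Om S0 →* Om Q :=
  ((eO hS h).comp (commutator (OGrp S0)).subtype).codRestrict _ (fun g => by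
    have h1 : (commutator (OGrp S0)).map (eO hS h) ≤ commutator (OGrp Q) := by
      rw [commutator_def, Subgroup.map_commutator]
      exact Subgroup.commutator_mono le_top le_top
    exact h1 ⟨_, g.2, rfl⟩)

omit [Finite F] [FiniteDimensional F V] in
theorem coe_eOm (g : Om S0) : ((eOm hS h g : Om Q) : OGrp Q) = eO hS h g := rfl

/-- the subfield subgroup -/
noncomputable def LL (hS : IsBC j S0 S) (h : IsFm σ S Q f0 e d) : Subgroup (T Q) := ((mk Q).comp (eOm hS h)).range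

variable [hG : Good Q] [Finite K] [hG0 : Good S0]

omit [Finite F] [Finite K] in
theorem ker_LL (g : Om S0) : mk Q (eOm hS h g) = 1 ↔ mk S0 g = 1 := by
  rw [mk_eq_one_iff, mk_eq_one_iff]
  constructor
  · rintro ⟨c, hc⟩
    -- `g` is central
    have h1 : g ∈ Subgroup.center (Om S0) := by
      rw [Subgroup.mem_center_iff]
      intro k
      apply Subtype.ext
      apply eO_injective hS h
      rw [Subgroup.coe_mul, Subgroup.coe_mul, map_mul, map_mul]
      refine OGrp_ext fun v => ?_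
      rw [coe_mul_apply, coe_mul_apply]
      have hc' : ∀ v, (eO hS h (g : OGrp S0) : V ≃ₗ[F] V) v = c • v := hc
      rw [hc', hc', map_smul]
    exact (mk_eq_one_iff g).1 ((QuotientGroup.eq_one_iff _).2 h1)
  · rintro ⟨c, hc⟩
    refine ⟨j c, ?_⟩
    have h1 : (((eO hS h (g : OGrp S0) : V ≃ₗ[F] V) : V →ₗ[F] V)).comp (e : (κ → F) →ₗ[F] V) =
        (j c) • (e : (κ → F) →ₗ[F] V) := lin_ext_bv j fun w => by
      change (eO hS h (g : OGrp S0) : V ≃ₗ[F] V) (e (bv j w)) = j c • e (bv j w)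
      rw [eO_bv, hc, bv_smul, map_smul]
    intro v
    obtain ⟨u, rfl⟩ := e.surjective v
    exact LinearMap.congr_fun h1 u

omit [Finite F] [Finite K] in
/-- the subfield subgroup is isomorphic to `PΩ(S0)` -/
theorem LL_equiv : Nonempty (T S0 ≃* LL hS h) := by
  have hker : ((mk Q).comp (eOm hS h)).ker = (mk S0).ker := by
    ext g
    rw [MonoidHom.mem_ker, MonoidHom.mem_ker]
    exact ker_LL hS h g
  exact ⟨((QuotientGroup.quotientKerEquivOfSurjective (mk S0) (mk_surjective S0)).symm.trans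
    (QuotientGroup.quotientMulEquivOfEq hker.symm)).trans (QuotientGroup.quotientKerEquivRange _)⟩

omit [Finite F] [Finite K] in
theorem simple_LL : IsSimpleGroup (LL hS h) := by
  obtain ⟨ψ⟩ := LL_equiv hS h
  have := simple_T (Q := S0)
  exact ψ.symm.isSimpleGroup

include hj in
omit [Finite F] [Finite K] hG0 [FiniteDimensional F V] hG in
theorem eO_commute (g : OGrp S0) : conjO Q f0 (eO hS h g) = eO hS h g := by
  refine isom_ext_e (j := j) (e := e) fun w => ?_
  rw [conjO_apply]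
  have h1 : ((f0⁻¹ : GamO Q) : Equiv.Perm V) (e (bv j w)) = e (bv j w) := by
    have h2 : (f0 : Equiv.Perm V) (e (bv j w)) = e (bv j w) := (fixed_iff hj h _).2 ⟨w, rfl⟩
    conv_lhs => rw [← h2]
    exact gam_inv_apply f0 _
  rw [h1, eO_bv]
  exact (fixed_iff hj h _).2 ⟨_, rfl⟩

include hj in
omit [Finite F] [Finite K] hG0 [FiniteDimensional F V] hG in
theorem LL_le_fix : LL hS h ≤ fixS (cO Q f0) := by
  rintro _ ⟨g, rfl⟩
  rw [mem_fixS]
  change cO Q f0 (mk Q (eOm hS h g)) = mk Q (eOm hS h g)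
  rw [cO_mk]
  congr 1
  apply Subtype.ext
  exact eO_commute hj hS h (g : OGrp S0)

omit [Finite F] [Finite K] hG0 [FiniteDimensional F V] hG in
/-- conjugation by a semisimilarity with restriction `g'` -/
theorem conj_eOm {g : GamO Q} {g' : GamO S0} (hgg : ∀ w, (g : Equiv.Perm V) (e (bv j w)) = e (bv j ((g' : Equiv.Perm (κ → K)) w)))
    (k : Om S0) : cOm Q g (eOm hS h k) = eOm hS h (cOm S0 g' k) := by
  apply Subtype.ext
  refine isom_ext_e (j := j) (e := e) fun w => ?_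
  change (g : Equiv.Perm V) ((eO hS h (k : OGrp S0) : V ≃ₗ[F] V) (((g⁻¹ : GamO Q) : Equiv.Perm V) (e (bv j w)))) =
    (eO hS h ((cOm S0 g' k : Om S0) : OGrp S0) : V ≃ₗ[F] V) (e (bv j w))
  have h1 : ((g⁻¹ : GamO Q) : Equiv.Perm V) (e (bv j w)) = e (bv j (((g'⁻¹ : GamO S0) : Equiv.Perm (κ → K)) w)) := by
    have h2 := hgg (((g'⁻¹ : GamO S0) : Equiv.Perm (κ → K)) w)
    rw [gam_apply_inv] at h2
    rw [← h2]
    exact gam_inv_apply g _
  rw [h1, eO_bv, hgg, eO_bv]; rfl

include hj in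
/-- automorphisms commuting with `cO f0` normalise the subfield subgroup -/
theorem LL_stable {g : GamO Q} (hg : cO Q g * cO Q f0 = cO Q f0 * cO Q g) :
    ∀ l ∈ LL hS h, cO Q g l ∈ LL hS h := by
  obtain ⟨c0, hf0⟩ := h.isSemi (exists_q_ne (Q := Q))
  obtain ⟨b, hb⟩ := exists_comm hf0 h.pow_order hg
  obtain ⟨τ, c, hgs⟩ := (scl Q b * g).2
  obtain ⟨g', hg', -⟩ := exists_res hj hS h (exists_q_ne (Q := S0)) hb hgs
  rintro _ ⟨k, rfl⟩
  have h1 : cO Q g = cO Q (scl Q b * g) := by rw [map_mul, cO_scl, one_mul]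
  rw [h1]
  refine ⟨cOm S0 g' k, ?_⟩
  change mk Q (eOm hS h (cOm S0 g' k)) = cO Q (scl Q b * g) (mk Q (eOm hS h k))
  rw [cO_mk, conj_eOm hS h hg']

include hj in
/-- automorphisms commuting with `cO f0` and centralising the subfield subgroup are powers of `cO f0` -/
theorem LL_cent {g : GamO Q} (hg : cO Q g * cO Q f0 = cO Q f0 * cO Q g)
    (hc : ∀ l ∈ LL hS h, cO Q g l = l) : cO Q g ∈ Subgroup.zpowers (cO Q f0) := by
  obtain ⟨c0, hf0⟩ := h.isSemi (exists_q_ne (Q := Q))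
  obtain ⟨b, hb⟩ := exists_comm hf0 h.pow_order hg
  have h1 : cO Q g = cO Q (scl Q b * g) := by rw [map_mul, cO_scl, one_mul]
  rw [h1] at hc ⊢
  generalize scl Q b * g = g1 at hb hc
  obtain ⟨τ, c, hgs⟩ := g1.2
  obtain ⟨g', hg', τ', c', hg's, hττ⟩ := exists_res hj hS h (exists_q_ne (Q := S0)) hb hgs
  -- the restriction is a scalar
  have h2 : cO S0 g' = 1 := by
    apply autT_ext
    intro k
    have h3 : cO Q g1 (mk Q (eOm hS h k)) = mk Q (eOm hS h k) := hc _ ⟨k, rfl⟩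
    rw [cO_mk, conj_eOm hS h hg', ← mul_inv_eq_one, ← map_inv, ← map_mul, ← map_inv, ← map_mul, ker_LL, map_mul, map_inv,
      mul_inv_eq_one] at h3
    rw [cO_mk, h3]; rfl
  obtain ⟨b', hb'⟩ := (cO_eq_one_iff _).1 h2
  -- adjust by the scalar
  set g2 : GamO Q := scl Q (Units.map (j : K →* F) b')⁻¹ * g1 with hg2
  have h3 : cO Q g1 = cO Q g2 := by rw [hg2, map_mul, cO_scl, one_mul]
  have h4 : ∀ w, (g2 : Equiv.Perm V) (e (bv j w)) = e (bv j w) := by
    intro w
    change (scl Q (Units.map (j : K →* F) b')⁻¹ : Equiv.Perm V) ((g1 : Equiv.Perm V) (e (bv j w))) = _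
    rw [hg', hb', scl_apply, scl_apply, bv_smul, map_smul, smul_smul]
    have : (((Units.map (j : K →* F) b')⁻¹ : Fˣ) : F) * j (b' : K) = 1 := Units.inv_mul (Units.map (j : K →* F) b')
    rw [this, one_smul]
  obtain ⟨τ2, c2, hg2s⟩ := g2.2
  -- the field part fixes `K`
  obtain ⟨w0, hw0⟩ := exists_q_ne (Q := S0)
  have hw00 : w0 ≠ 0 := by rintro rfl; exact hw0 (QuadraticMap.map_zero S0)
  have hev0 : e (bv j w0) ≠ 0 := fun hh => hw00 (bv_injective j (by
    rw [bv_zero]; exact e.injective (by rw [hh, map_zero])))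
  have h5 : ∀ x, σ x = x → τ2 x = x := by
    intro x hx
    obtain ⟨a, rfl⟩ := (hj x).1 hx
    have h6 := h4 (a • w0)
    rw [bv_smul, map_smul, hg2s.smul, h4, ← sub_eq_zero, ← sub_smul] at h6
    exact sub_eq_zero.1 ((smul_eq_zero.1 h6).resolve_right hev0)
  obtain ⟨i, hi⟩ := Subgroup.mem_zpowers_iff.1 (galois_zpowers h5)
  have hfin : Finite (RingAut F) :=
    Finite.of_injective (fun τ : RingAut F => (τ : F → F)) (fun a b h => RingEquiv.ext (congrFun h))
  obtain ⟨n, hn⟩ : ∃ n : ℕ, σ ^ n = τ2 := by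
    have : τ2 ∈ Subgroup.zpowers σ := galois_zpowers h5
    rw [← mem_powers_iff_mem_zpowers] at this
    exact this
  -- the elements agree
  have h6 : ∀ (s : Finset κ) (v : κ → F), (g2 : Equiv.Perm V) (e (∑ k ∈ s, v k • Pi.single k (1 : F))) =
      e (∑ k ∈ s, τ2 (v k) • Pi.single k (1 : F)) := by
    intro s v
    induction s using Finset.induction_on with
    | empty => rw [Finset.sum_empty, Finset.sum_empty, map_zero, hg2s.zero]
    | insert k s hk ih =>
      rw [Finset.sum_insert hk, Finset.sum_insert hk, map_add, hg2s.add, ih, map_add, map_smul, hg2s.smul, map_smul]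
      congr 2
      rw [← bv_single j]
      exact h4 _
  have h7 : g2 = f0 ^ n := by
    apply gam_ext
    intro v
    obtain ⟨u, rfl⟩ := e.surjective v
    rw [h.pow, hn]
    have h8 := h6 Finset.univ u
    have h9 : ∀ u : κ → F, ∑ k, u k • Pi.single k (1 : F) = u := fun u => (pi_eq_sum_univ' u).symm
    rw [h9 u, h9 fun k => τ2 (u k)] at h8
    exact h8
  rw [h3, h7, map_pow]
  exact Subgroup.pow_mem _ (Subgroup.mem_zpowers _) _

end res

end Cfsg.Agent.BalC
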