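import Cfsg.Agent.BalC.Field

/-!
Local balance for field automorphisms of `PΩ(Q)`: orders.
-/

set_option autoImplicit false

namespace Cfsg.Agent.BalC

open QuadraticMap Cfsg.Agent.ClassO Cfsg.Agent.AutLie Cfsg.Agent.AutO
open Cfsg.Agent.Orth hiding map_mul two_ne_zero_of_odd

section ctr
variable {F V : Type*} [Field F] [AddCommGroup V] [Module F V] [FiniteDimensional F V]
  {Q : QuadraticForm F V} [hG : Good Q]

theorem conj_inj : Function.Injective (MulAut.conj : T Q →* MulAut (T Q)) := by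
  rw [injective_iff_map_eq_one]
  intro t ht
  obtain ⟨g, rfl⟩ := mk_surjective Q t
  rw [← cO_ofO] at ht
  obtain ⟨c, hc⟩ := (cO_eq_one_iff _).1 ht
  rw [mk_eq_one_iff]
  exact ⟨c, fun v => congrArg (fun f : GamO Q => (f : Equiv.Perm V) v) hc⟩

theorem conj_inj_of_equiv {T1 T2 : Type*} [Group T1] [Group T2] (e : T1 ≃* T2)
    (h : Function.Injective (MulAut.conj : T2 →* MulAut T2)) : Function.Injective (MulAut.conj : T1 →* MulAut T1) := by
  intro a b hab
  apply e.injective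
  apply h
  ext s
  obtain ⟨s, rfl⟩ := e.surjective s
  have h1 := congrArg e (DFunLike.congr_fun hab s)
  change e (a * s * a⁻¹) = e (b * s * b⁻¹) at h1
  rw [map_mul, map_mul, map_inv, map_mul, map_mul, map_inv] at h1
  exact h1

/-- the fourth power of a similarity is a scalar times an element of `Ω` -/
theorem pow_four [Finite F] (g : SimG Q) : ∃ (c : Fˣ) (k : Om Q), g ^ 4 = sc Q c * ofS Q k := by
  obtain ⟨b, k, hk⟩ := exists_sc_ofS (g := g ^ 2) (by
    rw [map_pow, Units.val_pow_eq_pow_val]; exact ⟨_, pow_two _⟩)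
  obtain ⟨k', hk'⟩ := exists_om hG.nd hG.rg (g := k * k) (by
    rw [map_mul]; rcases Int.units_eq_one_or (parityHom hG.nd hG.rg k) with h | h <;> rw [h] <;> rfl) (by
    rw [map_mul]; rcases Int.units_eq_one_or (spinHom hG.nd hG.rg k) with h | h <;> rw [h] <;> rfl)
  refine ⟨b * b, k', ?_⟩
  have h1 : g ^ 4 = g ^ 2 * g ^ 2 := by rw [← pow_add]
  rw [h1, hk, hk', map_mul, map_mul]
  calc sc Q b * ofS Q k * (sc Q b * ofS Q k) = sc Q b * (ofS Q k * sc Q b) * ofS Q k := by group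
    _ = sc Q b * (sc Q b * ofS Q k) * ofS Q k := by rw [sc_comm]
    _ = _ := by group

/-- an involution of `Ω` which is not central -/
theorem exists_invol (h2 : (2 : F) ≠ 0) [Finite F] : ∃ k : Om Q, k * k = 1 ∧ mk Q k ≠ 1 := by
  obtain ⟨e, f, hyp⟩ := hG.hyp
  have hq : ∀ i, Q (e i + f i) = 1 := by
    intro i
    rw [qadd, hyp.e0, hyp.f0, hyp.ef, if_pos rfl, zero_add, zero_add]
  have hp : ∀ i j, i ≠ j → polar Q (e i + f i) (e j + f j) = 0 := by
    intro i j hij
    rw [pal, par, par, hyp.ee, hyp.ff, hyp.ef, pc Q (f i), hyp.ef, if_neg hij, if_neg (Ne.symm hij)]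
    simp
  have h0 : ∀ i, Q (e i + f i) ≠ 0 := fun i => by rw [hq]; exact one_ne_zero
  set r0 := refl Q _ (h0 0) with hr0
  set r1 := refl Q _ (h0 1) with hr1
  have hcomm : r0 * r1 = r1 * r0 := by
    refine OGrp_ext fun v => ?_
    rw [coe_mul_apply, coe_mul_apply, hr0, hr1, refl_apply, refl_apply, refl_apply, refl_apply, pdl, pdl, psl, psl,
      hp 0 1 (by decide), hp 1 0 (by decide), mul_zero, mul_zero, sub_zero, sub_zero]
    module
  obtain ⟨k, hk⟩ := exists_om hG.nd hG.rg (g := r0 * r1) (by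
    rw [map_mul, parityHom_refl, parityHom_refl]; rfl) (by
    rw [map_mul, spinHom_refl, spinHom_refl, hq, hq, sqc, if_pos IsSquare.one]; rfl)
  refine ⟨k, Subtype.ext ?_, ?_⟩
  · rw [Subgroup.coe_mul, hk, Subgroup.coe_one]
    calc r0 * r1 * (r0 * r1) = r0 * (r1 * r0) * r1 := by group
      _ = (r0 * r0) * (r1 * r1) := by rw [← hcomm]; group
      _ = 1 := by rw [hr0, hr1, refl_mul_self, refl_mul_self, one_mul]
  · intro h
    obtain ⟨c, hc⟩ := (mk_eq_one_iff k).1 h
    rw [hk] at hc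
    have h3 := hc (e 2 + f 2)
    rw [coe_mul_apply, hr0, hr1, refl_apply, refl_apply, pdl, psl, hp 2 1 (by decide), hp 2 0 (by decide)] at h3
    rw [mul_zero, zero_smul, sub_zero, zero_mul, sub_zero, mul_zero, zero_smul, sub_zero] at h3
    have h4 := hc (e 0 + f 0)
    rw [coe_mul_apply, hr0, hr1, refl_apply, refl_apply, pdl, psl, hp 0 1 (by decide), pself, hq] at h4
    simp only [mul_zero, zero_smul, sub_zero, zero_mul, inv_one, one_mul, mul_one] at h4
    have h5 := congrArg Q h4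
    have he2 : e 2 + f 2 ≠ 0 := fun hh => h0 2 (by rw [hh, QuadraticMap.map_zero])
    have he0 : e 0 + f 0 ≠ 0 := fun hh => h0 0 (by rw [hh, QuadraticMap.map_zero])
    have hc1 : c = 1 := by
      have : (c - 1) • (e 2 + f 2) = 0 := by rw [sub_smul, one_smul, ← h3, sub_self]
      exact sub_eq_zero.1 ((smul_eq_zero.1 this).resolve_right he2)
    rw [hc1, one_smul] at h4
    have : (2 : F) • (e 0 + f 0) = 0 := by
      have h6 : (e 0 + f 0) - (2 : F) • (e 0 + f 0) = e 0 + f 0 := by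
        have h7 : (Q (e 0 + f 0))⁻¹ * (2 * Q (e 0 + f 0)) = 2 := by rw [hq]; ring
        rwa [h7] at h4
      exact sub_eq_self.1 h6
    exact h2 ((smul_eq_zero.1 this).resolve_right he0)

end ctr

section res
variable {K F V : Type*} [Field K] [Field F] [Finite F] [AddCommGroup V] [Module F V] [FiniteDimensional F V]
  {κ : Type*} [Fintype κ] [DecidableEq κ] {j : K →+* F} {σ : RingAut F} (hj : ∀ x, σ x = x ↔ x ∈ Set.range j)
  {S0 : QuadraticForm K (κ → K)} {S : QuadraticForm F (κ → F)} (hS : IsBC j S0 S)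
  {Q : QuadraticForm F V} {f0 : GamO Q} {e : (κ → F) ≃ₗ[F] V} {d : Fˣ} (h : IsFm σ S Q f0 e d)
  [hG : Good Q] [Finite K] [hG0 : Good S0]

include hj in
/-- fourth powers of fixed points are in the subfield subgroup -/
theorem pow_four_mem {t : T Q} (ht : t ∈ fixS (cO Q f0)) : t ^ 4 ∈ LL hS h := by
  obtain ⟨c0, hf0⟩ := h.isSemi (exists_q_ne (Q := Q))
  obtain ⟨g, rfl⟩ := mk_surjective Q t
  have h1 : dO Q (ofS Q g) * cO Q f0 = cO Q f0 * dO Q (ofS Q g) := by
    change cO Q (toGam Q (ofS Q g)) * cO Q f0 = cO Q f0 * cO Q (toGam Q (ofS Q g))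
    rw [toGam_ofS, cO_ofO]
    ext s
    change mk Q g * (cO Q f0) s * (mk Q g)⁻¹ = (cO Q f0) (mk Q g * s * (mk Q g)⁻¹)
    rw [map_mul, map_mul, map_inv, mem_fixS.1 ht]
  obtain ⟨b, hb⟩ := (commute_iff' hf0 h.pow_order (ofS Q g)).1 h1
  obtain ⟨g0, hg0⟩ := exists_EE hj hS h (exists_q_ne (Q := S0)) _ hb
  obtain ⟨c, k, hk⟩ := pow_four g0
  have h2 : dO Q (EE hS h (g0 ^ 4)) = dO Q (ofS Q (g : OGrp Q)) ^ 4 := by
    rw [map_pow, map_pow, hg0, map_mul, (dO_eq_one_iff (sc Q b)).2 ⟨b, rfl⟩, mul_one]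
  have h3 : dO Q (EE hS h (g0 ^ 4)) = MulAut.conj (mk Q (eOm hS h k)) := by
    rw [hk, map_mul, EE_sc, map_mul, (dO_eq_one_iff _).2 ⟨_, rfl⟩, one_mul, EE_ofS]
    change cO Q (toGam Q (ofS Q ((eOm hS h k : Om Q) : OGrp Q))) = _
    rw [toGam_ofS, cO_ofO]
  have h4 : dO Q (ofS Q (g : OGrp Q)) = MulAut.conj (mk Q g) := by
    change cO Q (toGam Q (ofS Q (g : OGrp Q))) = _
    rw [toGam_ofS, cO_ofO]
  rw [h3, h4, ← map_pow] at h2
  rw [← conj_inj h2]
  exact ⟨k, rfl⟩

include hj in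
theorem LL_card [Finite V] {p : ℕ} [hp : Fact p.Prime] (hp2 : p = 2 → (2 : F) ≠ 0)
    (hd : p ∣ Nat.card (fixS (cO Q f0))) : p ∣ Nat.card (LL hS h) := by
  have hfin : Finite (T Q) := by
    have : Finite (OGrp Q) := Finite.of_injective (fun g : OGrp Q => ((g : V ≃ₗ[F] V) : V → V)) fun a b hab =>
      OGrp_ext (congrFun hab)
    infer_instance
  by_cases h2 : p = 2
  · obtain ⟨k, hk, hk1⟩ := exists_invol (Q := S0) (by
      intro hh
      apply hp2 h2
      have := congrArg j hh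
      rwa [map_zero, map_ofNat] at this)
    set t : LL hS h := ⟨mk Q (eOm hS h k), k, rfl⟩ with ht
    have h3 : orderOf t = 2 := by
      rw [orderOf_eq_prime_iff]
      constructor
      · apply Subtype.ext
        change mk Q (eOm hS h k) ^ 2 = 1
        rw [← map_pow, ← map_pow, pow_two, hk, map_one, map_one]
      · intro hh
        have h4 : mk Q (eOm hS h k) = 1 := congrArg Subtype.val hh
        exact hk1 ((ker_LL hS h k).1 h4)
    rw [h2, ← h3]
    exact orderOf_dvd_natCard t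
  · obtain ⟨t, ht⟩ := exists_prime_orderOf_dvd_card' p hd
    have h3 := pow_four_mem hj hS h t.2
    have h4 : (t : T Q) ∈ LL hS h := by
      have hcop : Nat.Coprime 4 p := by
        have : Nat.Coprime 2 p := (Nat.coprime_primes Nat.prime_two hp.out).2 (Ne.symm h2)
        exact (this.mul_left this : Nat.Coprime (2 * 2) p)
      have hot : orderOf (t : T Q) = p := by rw [Subgroup.orderOf_coe, ht]
      obtain ⟨m, hm⟩ := exists_pow_eq_self_of_coprime (n := 4) (x := (t : T Q)) (by rw [hot]; exact hcop)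
      rw [← hm]
      exact Subgroup.pow_mem _ h3 m
    have h5 : orderOf (⟨(t : T Q), h4⟩ : LL hS h) = p := by
      rw [← ht, ← Subgroup.orderOf_coe, ← Subgroup.orderOf_coe]
    rw [← h5]
    exact orderOf_dvd_natCard _

include hj in
/-- **balance for field automorphisms** -/
theorem balance_field [Finite V] {p : ℕ} [hp : Fact p.Prime] (hp2 : p = 2 → (2 : F) ≠ 0) (hS : IsBC j S0 S)
    (h : IsFm σ S Q f0 e d) {y : MulAut (T Q)} (hy : y = cO Q f0) (hord : orderOf y = p) {A : Subgroup (MulAut (T Q))}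
    (hinn : ∀ t : T Q, MulAut.conj t ∈ A) (hall : ∀ α ∈ A, α * y = y * α → ∃ g : GamO Q, α = cO Q g) :
    Cfsg.pPrimeCore p ↥(A ⊓ Subgroup.centralizer {y}) ≠ ⊥ ↔ Nat.Coprime p (Nat.card (fixS y)) := by
  subst hy
  have hfin : Finite (T Q) := by
    have : Finite (OGrp Q) := Finite.of_injective (fun g : OGrp Q => ((g : V ≃ₗ[F] V) : V → V)) fun a b hab =>
      OGrp_ext (congrFun hab)
    infer_instance
  refine balance_iff hinn conj_inj hord (LL_le_fix hj hS h) (simple_LL hS h) ?_ ?_ (LL_card hj hS h hp2)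
  · intro α hα hc
    obtain ⟨g, rfl⟩ := hall α hα hc
    exact LL_stable hj hS h hc
  · intro α hα hc hl
    obtain ⟨g, rfl⟩ := hall α hα hc
    exact LL_cent hj hS h hc hl

end res

theorem hall_map {T1 T2 : Type*} [Group T1] [Group T2] (e : T1 ≃* T2) {A : Subgroup (MulAut T1)} {x : MulAut T1}
    {P : MulAut T2 → Prop} (h : ∀ α ∈ A, α * x = x * α → P (MulAut.congr e α)) :
    ∀ α ∈ A.map (MulAut.congr e).toMonoidHom, α * MulAut.congr e x = MulAut.congr e x * α → P α := by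
  rintro _ ⟨α, hα, rfl⟩ hc
  refine h α hα ?_
  apply (MulAut.congr e).injective
  rw [map_mul, map_mul]
  exact hc

theorem core_bot_of_equiv {G H : Type*} [Group G] [Group H] (p : ℕ) (ψ : G ≃* H) (hG : Cfsg.pPrimeCore p G = ⊥) :
    Cfsg.pPrimeCore p H = ⊥ := by
  have h1 := Solv.map_pPrimeCore_le p ψ.symm.toMonoidHom ψ.symm.surjective
  rw [hG, le_bot_iff, Subgroup.map_eq_bot_iff_of_injective _ ψ.symm.injective] at h1
  exact h1

/-- transport of the criterion -/
theorem core_transport {T1 T2 : Type*} [Group T1] [Group T2] [Finite T1] [Finite T2] (e : T1 ≃* T2) (p : ℕ)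
    (A : Subgroup (MulAut T1)) (x : MulAut T1) :
    (Cfsg.pPrimeCore p ↥(A ⊓ Subgroup.centralizer {x}) = ⊥ ↔
      Cfsg.pPrimeCore p ↥(A.map (MulAut.congr e).toMonoidHom ⊓ Subgroup.centralizer {MulAut.congr e x}) = ⊥) ∧
    Nat.card (fixS x) = Nat.card (fixS (MulAut.congr e x)) := by
  constructor
  · have ψ := centMap (MulAut.congr e) A x
    exact ⟨core_bot_of_equiv p ψ, core_bot_of_equiv p ψ.symm⟩
  · refine Nat.card_congr (e.toEquiv.subtypeEquiv fun t => ?_)
    change x t = t ↔ e (x (e.symm (e t))) = e t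
    rw [e.symm_apply_apply]
    exact e.injective.eq_iff.symm

end Cfsg.Agent.BalC
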