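import Cfsg.Agent.BalC.Field2
import Cfsg.Agent.AutO.EvLang

/-!
Local balance for the odd-dimensional orthogonal groups.
-/

set_option autoImplicit false

namespace Cfsg.Agent.BalC

open QuadraticMap Cfsg.Agent.ClassO Cfsg.Agent.AutLie Cfsg.Agent.AutO
open Cfsg.Agent.Orth hiding map_mul two_ne_zero_of_odd

theorem conj_symm_aux {G H : Type*} [Group G] [Group H] (E : G ≃* H) {x : G} {a b : H} (h : E x = a * b * a⁻¹) :
    E.symm a⁻¹ * x * (E.symm a⁻¹)⁻¹ = E.symm b := by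
  apply E.injective
  have h1 := E.apply_symm_apply a⁻¹
  generalize E.symm a⁻¹ = u at *
  rw [map_mul, map_mul, map_inv, h1, E.apply_symm_apply, h]
  group

section gen
variable {F : Type*} [Field F] [Finite F] {ι : Type} [Fintype ι] [DecidableEq ι] {Q : QuadraticForm F (ι → F)}
  [hG : Good Q]

/-- adjusting a representative -/
theorem setup_prime {y : MulAut (T Q)} {f : GamO Q} {σ : RingAut F} {c : Fˣ} (hf : IsSemi Q (f : Equiv.Perm (ι → F)) σ c)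
    (hy : y = cO Q f) (hσ : σ ≠ 1) {p : ℕ} (hp : p.Prime) (hord : orderOf y = p) :
    orderOf σ = p ∧ ∃ (f1 : GamO Q) (c1 : Fˣ), y = cO Q f1 ∧ IsSemi Q (f1 : Equiv.Perm (ι → F)) σ c1 ∧ f1 ^ orderOf σ = 1 := by
  have h1 : (cO Q f) ^ p = 1 := by rw [← hy, ← hord, pow_orderOf_eq_one]
  have h2 := orderOf_of_prime hf hσ hp h1
  refine ⟨h2, ?_⟩
  obtain ⟨b, hb⟩ := exists_adjust hf (by rw [h2]; exact h1)
  have h3 := (isSemi_scl (Q := Q) b).mul hf
  rw [one_mul] at h3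
  exact ⟨scl Q b * f, _, by rw [map_mul, cO_scl, one_mul]; exact hy, h3, hb⟩

/-- a representative with trivial field part gives a similarity -/
theorem sim_of_one {x : MulAut (Cfsg.POmega F ⇑Q)} {f : GamO Q} {c : Fˣ} (hf : IsSemi Q (f : Equiv.Perm (ι → F)) 1 c)
    (hx : aE Q x = cO Q f) : Cfsg.IsSimilarityInducedAutPOmega (⇑Q) x := by
  obtain ⟨g, rfl, -⟩ := exists_toGam hf
  obtain ⟨A, hA, hA'⟩ := exists_matOf g
  exact ⟨A, hA, (inducedSim_iff hA' x).2 hx⟩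

theorem field_of_conj (hQ : ∀ (σ : RingAut F) (v : ι → F), Q (fun i => σ (v i)) = σ (Q v)) {σ : RingAut F} (hσ : σ ≠ 1)
    {x : MulAut (Cfsg.POmega F ⇑Q)} {f1 : GamO Q} {g : SimG Q} (hx1 : aE Q x = cO Q f1)
    (hg : f1 = toGam Q g * stdF hQ σ * (toGam Q g)⁻¹) : Cfsg.IsFieldAutClassPOmega (⇑Q) x := by
  have h1 : aE Q x = dO Q g * cO Q (stdF hQ σ) * (dO Q g)⁻¹ := by
    rw [hx1, hg, map_mul, map_mul, map_inv]; rfl
  refine ⟨(aE Q).symm (dO Q g)⁻¹, (aE Q).symm (cO Q (stdF hQ σ)), σ, hσ, ?_, ?_⟩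
  · exact (stdField_iff hQ σ _).2 ((aE Q).apply_symm_apply _)
  · exact conj_symm_aux (aE Q) h1

theorem finite_T : Finite (T Q) := by
  have : Finite (OGrp Q) := Finite.of_injective (fun g : OGrp Q => ((g : (ι → F) ≃ₗ[F] (ι → F)) : (ι → F) → (ι → F)))
    fun a b hab => OGrp_ext (congrFun hab)
  infer_instance

theorem inn_map {T1 T2 : Type*} [Group T1] [Group T2] (e : T1 ≃* T2) {A : Subgroup (MulAut T1)}
    (hinn : ∀ t : T1, MulAut.conj t ∈ A) (t : T2) : MulAut.conj t ∈ A.map (MulAut.congr e).toMonoidHom := by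
  obtain ⟨s, rfl⟩ := e.surjective t
  refine ⟨MulAut.conj s, hinn s, ?_⟩
  ext u
  obtain ⟨v, rfl⟩ := e.surjective u
  change e (s * e.symm (e v) * s⁻¹) = e s * e v * (e s)⁻¹
  rw [e.symm_apply_apply, map_mul, map_mul, map_inv]

/-- the criterion for a descended field automorphism -/
theorem balance_desc {K κ : Type*} [Field K] [Finite K] [Fintype κ] [DecidableEq κ] {j : K →+* F} {σ : RingAut F}
    (hj : ∀ x, σ x = x ↔ x ∈ Set.range j) {S0 : QuadraticForm K (κ → K)} {S : QuadraticForm F (κ → F)} [hG0 : Good S0]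
    (hS : IsBC j S0 S) {f0 : GamO Q} {e : (κ → F) ≃ₗ[F] (ι → F)} {d : Fˣ} (h : IsFm σ S Q f0 e d)
    {p : ℕ} [hp : Fact p.Prime] (hp2 : p = 2 → (2 : F) ≠ 0) {x : MulAut (Cfsg.POmega F ⇑Q)} (hord : orderOf x = p)
    (hx : aE Q x = cO Q f0)
    {A : Subgroup (MulAut (Cfsg.POmega F ⇑Q))} (hinn : ∀ t : Cfsg.POmega F ⇑Q, MulAut.conj t ∈ A)
    (hall : ∀ α ∈ A, α * x = x * α → ∃ g : GamO Q, aE Q α = cO Q g) :
    Cfsg.pPrimeCore p ↥(A ⊓ Subgroup.centralizer {x}) ≠ ⊥ ↔ Nat.Coprime p (Nat.card (fixS x)) := by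
  have hfinT : Finite (T Q) := finite_T
  have hfinP : Finite (Cfsg.POmega F ⇑Q) := Finite.of_injective _ (pomE Q).injective
  obtain ⟨h3, h4⟩ := core_transport (pomE Q) p A x
  have h5 := balance_field (p := p) hj hp2 hS h (y := MulAut.congr (pomE Q) x) hx
    ((orderOf_aE (Q := Q) x).trans hord) (A := A.map (MulAut.congr (pomE Q)).toMonoidHom) (inn_map (pomE Q) hinn)
    (hall_map (pomE Q) hall)
  rw [h4, ← h5, not_iff_not]
  exact h3

end gen

section odd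
variable {F : Type*} [Field F] [Fintype F] {m : ℕ}

theorem balance_odd (hodd : Odd (Fintype.card F)) (hm : 3 ≤ m) {p : ℕ} [hp : Fact p.Prime]
    (A : Subgroup (MulAut (Cfsg.POmega F ⇑(qfOdd m F)))) (hinn : ∀ k : Cfsg.POmega F ⇑(qfOdd m F), MulAut.conj k ∈ A)
    (x : MulAut (Cfsg.POmega F ⇑(qfOdd m F))) (hord : orderOf x = p)
    (hnot : ¬ Cfsg.IsSimilarityInducedAutPOmega (⇑(qfOdd m F)) x) :
    Cfsg.pPrimeCore p ↥(A ⊓ Subgroup.centralizer {x}) ≠ ⊥ ↔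
      (Cfsg.IsFieldAutClassPOmega (⇑(qfOdd m F)) x ∧ Nat.Coprime p (Nat.card (fixS x))) := by
  have h2 : (2 : F) ≠ 0 := ClassO.two_ne_zero_of_odd hodd
  have hG : Good (qfOdd m F) := good_odd h2 hm
  have hall := hall_of_gamma (Q := qfOdd m F) (Cfsg.Agent.S2694.result hodd hm)
  obtain ⟨f, hf⟩ := hall (aE _ x)
  obtain ⟨σ, c, hfs⟩ := f.2
  have hσ : σ ≠ 1 := by
    rintro rfl
    exact hnot (sim_of_one hfs hf)
  obtain ⟨hσp, f1, c1, hx1, hf1, hf1n⟩ := setup_prime hfs hf hσ hp.out (by rw [orderOf_aE, hord])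
  obtain ⟨g, hg⟩ := conj_std_odd h2 hm hf1 hf1n
  obtain ⟨d', hFm⟩ := (isFm_stdF_odd (m := m) σ).conj' g
  rw [← hg] at hFm
  have hfield := field_of_conj std_odd hσ hx1 hg
  have hK2 : (2 : AutSp.fixF σ) ≠ 0 := by
    intro h
    apply h2
    have := congrArg (AutSp.fixF σ).subtype h
    rw [map_zero, map_ofNat] at this
    exact this
  have _i := Fintype.ofFinite (AutSp.fixF σ)
  have hG0 : Good (qfOdd m (AutSp.fixF σ)) := good_odd hK2 hm
  rw [balance_desc (AutSp.mem_fixF σ) (isBC_odd (AutSp.fixF σ).subtype m) hFm (fun _ => h2) hord hx1 hinn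
    (fun α _ _ => hall _)]
  exact ⟨fun h => ⟨hfield, h⟩, fun h => h.2⟩

end odd

end Cfsg.Agent.BalC
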