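import Cfsg.Agent.BalC.Abs
import Cfsg.Agent.AutO.RowOdd

/-!
Restriction of semisimilarities to the fixed form.
-/

set_option autoImplicit false

namespace Cfsg.Agent.BalC

open QuadraticMap Cfsg.Agent.ClassO Cfsg.Agent.AutLie Cfsg.Agent.AutO
open Cfsg.Agent.Orth hiding map_mul two_ne_zero_of_odd

/-- automorphisms fixing the fixed field of `σ` are powers of `σ` -/
theorem galois_zpowers {F : Type*} [Field F] [Finite F] {σ τ : RingAut F} (h : ∀ x, σ x = x → τ x = x) :
    τ ∈ Subgroup.zpowers σ := by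
  have _i := Fintype.ofFinite F
  obtain ⟨p, hp⟩ := CharP.exists F
  have hpp : Fact p.Prime := ⟨CharP.char_is_prime F p⟩
  let _ : Algebra (ZMod p) F := ZMod.algebra F p
  let σ' : F ≃ₐ[ZMod p] F := AutPSL.ringAutEquivGal F p σ
  let τ' : F ≃ₐ[ZMod p] F := AutPSL.ringAutEquivGal F p τ
  have h1 : τ' ∈ IntermediateField.fixingSubgroup (IntermediateField.fixedField (Subgroup.zpowers σ')) := by
    rw [IntermediateField.mem_fixingSubgroup_iff]
    intro x hx
    rw [IntermediateField.mem_fixedField_iff] at hx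
    exact h x (hx σ' (Subgroup.mem_zpowers _))
  rw [IntermediateField.fixingSubgroup_fixedField] at h1
  obtain ⟨n, hn⟩ := Subgroup.mem_zpowers_iff.1 h1
  refine Subgroup.mem_zpowers_iff.2 ⟨n, ?_⟩
  apply (AutPSL.ringAutEquivGal F p).injective
  rw [map_zpow]
  exact hn

section comm
variable {F V : Type*} [Field F] [Finite F] [AddCommGroup V] [Module F V] [FiniteDimensional F V]
  {Q : QuadraticForm F V} [hG : Good Q]

/-- semisimilarities commuting modulo scalars with one of finite order -/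
theorem exists_comm {f0 : GamO Q} {σ : RingAut F} {e : Fˣ} (hf : IsSemi Q (f0 : Equiv.Perm V) σ e)
    (hfn : f0 ^ orderOf σ = 1) {g : GamO Q} (h : cO Q g * cO Q f0 = cO Q f0 * cO Q g) :
    ∃ b : Fˣ, scl Q b * g * f0 = f0 * (scl Q b * g) := by
  have hfin : Finite (RingAut F) :=
    Finite.of_injective (fun τ : RingAut F => (τ : F → F)) (fun a b h => RingEquiv.ext (congrFun h))
  have hr : 0 < orderOf σ := orderOf_pos σ
  have hone : scl Q (1 : Fˣ) = 1 := gam_ext fun v => one_smul F v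
  have h1 : cO Q (g * f0 * g⁻¹ * f0⁻¹) = 1 := by
    rw [map_mul, map_mul, map_mul, h, map_inv, map_inv]; group
  obtain ⟨c, hc⟩ := (cO_eq_one_iff _).1 h1
  have h2 : g * f0 * g⁻¹ = scl Q c * f0 := by rw [← hc, inv_mul_cancel_right]
  have h3 : twNorm (uMap σ) c (orderOf σ) = 1 := by
    apply scl_injective (Q := Q)
    have h4 := scl_mul_pow c hf (orderOf σ)
    rw [← h2, conj_pow, hfn, mul_one, mul_one, mul_inv_cancel] at h4
    rw [← h4, hone]
  obtain ⟨b, hb⟩ := hilbert90_units σ hr c h3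
  refine ⟨b⁻¹, ?_⟩
  have h5 : g * f0 = scl Q c * f0 * g := by rw [← h2, inv_mul_cancel_right]
  have h6 : f0 * scl Q b⁻¹ = scl Q (uMap σ b)⁻¹ * f0 := by rw [scl_comm _ hf, map_inv]; rfl
  have h7 : b⁻¹ * c = (uMap σ b)⁻¹ := by rw [hb, inv_mul_cancel_left]
  rw [mul_assoc, h5, ← mul_assoc, ← mul_assoc, ← scl_mul, h7, ← h6, mul_assoc]

end comm

section res
variable {K F V : Type*} [Field K] [Field F] [Finite F] [AddCommGroup V] [Module F V] [FiniteDimensional F V]
  {κ : Type*} [Fintype κ] [DecidableEq κ] {j : K →+* F} {σ : RingAut F} (hj : ∀ x, σ x = x ↔ x ∈ Set.range j)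
  {S0 : QuadraticForm K (κ → K)} {S : QuadraticForm F (κ → F)} (hS : IsBC j S0 S)
  {Q : QuadraticForm F V} {f0 : GamO Q} {e : (κ → F) ≃ₗ[F] V} {d : Fˣ} (h : IsFm σ S Q f0 e d)

include hj h in
omit [Finite F] [FiniteDimensional F V] in
/-- fixed vectors -/
theorem fixed_iff (v : V) : (f0 : Equiv.Perm V) v = v ↔ ∃ w : κ → K, v = e (bv j w) := by
  obtain ⟨u, rfl⟩ := e.surjective v
  rw [h.f]
  constructor
  · intro hv
    have h1 := e.injective hv
    obtain ⟨w, hw⟩ := (fix_bv j hj u).1 (fun k => congrFun h1 k)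
    exact ⟨w, by rw [hw]⟩
  · rintro ⟨w, hw⟩
    rw [hw, e.injective hw]
    congr 1
    exact funext fun k => fix_j j hj _

include hj hS h in
/-- a semisimilarity commuting with `f0` restricts to the fixed form -/
theorem exists_res [Finite K] (hne : ∃ w, S0 w ≠ 0) {g : GamO Q} (hg : g * f0 = f0 * g) {τ : RingAut F} {c : Fˣ}
    (hgs : IsSemi Q (g : Equiv.Perm V) τ c) :
    ∃ (g' : GamO S0), (∀ w, (g : Equiv.Perm V) (e (bv j w)) = e (bv j ((g' : Equiv.Perm (κ → K)) w))) ∧
      ∃ (τ' : RingAut K) (c' : Kˣ), IsSemi S0 (g' : Equiv.Perm (κ → K)) τ' c' ∧ ∀ x, j (τ' x) = τ (j x) := by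
  obtain ⟨w0, hw0⟩ := hne
  have hw00 : w0 ≠ 0 := by rintro rfl; exact hw0 (QuadraticMap.map_zero S0)
  have hnt : Nontrivial V := ⟨e (bv j w0), 0, fun hh => hw00 (bv_injective j (by
    rw [bv_zero]; exact e.injective (by rw [hh, map_zero])))⟩
  have hQ0 : Q (e (bv j w0)) ≠ 0 := by
    rw [h.q, hS]
    exact mul_ne_zero d.ne_zero fun hh => hw0 (j.injective (hh.trans (map_zero j).symm))
  obtain ⟨c0, hf0⟩ := h.isSemi ⟨_, hQ0⟩
  -- the field parts commute
  have hcomm : τ * σ = σ * τ := by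
    have h1 := hgs.mul hf0
    have h2 := hf0.mul hgs
    have h3 : ((g : Equiv.Perm V) * (f0 : Equiv.Perm V)) = ((f0 : Equiv.Perm V) * (g : Equiv.Perm V)) :=
      congrArg Subtype.val hg
    rw [h3] at h1
    exact IsSemi.uniq h1 h2 hnt
  have hrange : ∀ x : K, ∃ y : K, j y = τ (j x) := by
    intro x
    refine (hj _).1 ?_
    have h1 : σ (τ (j x)) = (σ * τ) (j x) := rfl
    rw [h1, ← hcomm]
    change τ (σ (j x)) = _
    rw [fix_j j hj]
  choose t ht using hrange
  let τh : K →+* K :=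
    { toFun := t
      map_one' := j.injective (by rw [ht, map_one, map_one])
      map_zero' := j.injective (by rw [ht, map_zero, map_zero])
      map_mul' := fun a b => j.injective (by rw [ht, map_mul, map_mul, map_mul, ht, ht])
      map_add' := fun a b => j.injective (by rw [ht, map_add, map_add, map_add, ht, ht]) }
  let τ' : RingAut K := RingEquiv.ofBijective τh (Finite.injective_iff_bijective.1 τh.injective)
  have hτ' : ∀ x, j (τ' x) = τ (j x) := ht
  -- the map on vectors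
  have hvec : ∀ w : κ → K, ∃ w' : κ → K, (g : Equiv.Perm V) (e (bv j w)) = e (bv j w') := by
    intro w
    refine (fixed_iff hj h _).1 ?_
    have h1 : (f0 : Equiv.Perm V) (e (bv j w)) = e (bv j w) := (fixed_iff hj h _).2 ⟨w, rfl⟩
    have h2 : (f0 : Equiv.Perm V) ((g : Equiv.Perm V) (e (bv j w))) = (g : Equiv.Perm V) ((f0 : Equiv.Perm V) (e (bv j w))) :=
      congrArg (fun x : GamO Q => (x : Equiv.Perm V) (e (bv j w))) hg.symm
    rw [h2, h1]
  choose φ hφ using hvec
  have hinj : Function.Injective φ := by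
    intro u w huw
    have h1 : (g : Equiv.Perm V) (e (bv j u)) = (g : Equiv.Perm V) (e (bv j w)) := by rw [hφ, hφ, huw]
    exact bv_injective j (e.injective ((g : Equiv.Perm V).injective h1))
  have hinj2 : Function.Injective fun w : κ → K => e (bv j w) := fun u w huw => bv_injective j (e.injective huw)
  have hadd : ∀ u w, φ (u + w) = φ u + φ w := by
    intro u w
    apply hinj2
    change e (bv j (φ (u + w))) = e (bv j (φ u + φ w))
    rw [← hφ, bv_add, map_add, hgs.add, hφ, hφ, bv_add, map_add]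
  have hsmul : ∀ (a : K) w, φ (a • w) = τ' a • φ w := by
    intro a w
    apply hinj2
    change e (bv j (φ (a • w))) = e (bv j (τ' a • φ w))
    rw [← hφ, bv_smul, map_smul, hgs.smul, hφ, bv_smul, map_smul, hτ']
  have hq : ∀ w, j (S0 (φ w)) = (d⁻¹ * c * uMap τ d : Fˣ) * j (τ' (S0 w)) := by
    intro w
    have h1 := h.q (bv j (φ w))
    rw [hS, ← hφ, hgs.q, h.q, hS, map_mul] at h1
    rw [hτ', Units.val_mul, Units.val_mul, coe_uMap]
    have h2 : j (S0 (φ w)) = (d⁻¹ : Fˣ) * (d * j (S0 (φ w))) := by rw [Units.inv_mul_cancel_left]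
    rw [h2, ← h1]
    ring
  have hτ0 : τ' (S0 w0) ≠ 0 := fun hh => hw0 (τ'.injective (hh.trans (map_zero τ').symm))
  obtain ⟨c', hc'⟩ : ∃ c' : Kˣ, j c' = (d⁻¹ * c * uMap τ d : Fˣ) := by
    have hne1 : S0 (φ w0) * (τ' (S0 w0))⁻¹ ≠ 0 := by
      refine mul_ne_zero ?_ (inv_ne_zero hτ0)
      intro hh
      have h1 := hq w0
      rw [hh, map_zero] at h1
      exact mul_ne_zero (Units.ne_zero _) (fun h2 => hτ0 (j.injective (h2.trans (map_zero j).symm))) h1.symm
    refine ⟨Units.mk0 _ hne1, ?_⟩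
    rw [Units.val_mk0, map_mul, map_inv₀, hq]
    have : j (τ' (S0 w0)) ≠ 0 := fun h2 => hτ0 (j.injective (h2.trans (map_zero j).symm))
    rw [mul_assoc, mul_inv_cancel₀ this, mul_one]
  have hsemi : IsSemi S0 (Equiv.ofBijective φ (Finite.injective_iff_bijective.1 hinj)) τ' c' :=
    ⟨hadd, hsmul, fun w => j.injective (by
      rw [map_mul, hc']
      exact hq w)⟩
  exact ⟨⟨_, τ', c', hsemi⟩, hφ, τ', c', hsemi, hτ'⟩

end res

end Cfsg.Agent.BalC
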