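import Cfsg.Agent.AutSp.Order
import Cfsg.Agent.AutSp.Cent
import Cfsg.Agent.AutSp.Main
import Cfsg.Agent.ClassSp.Sp42
import Cfsg.Agent.BalC.Field2

/-!
Local balance for `PSp`: the almost simple subgroup.
-/

set_option autoImplicit false

namespace Cfsg.Agent.BalC

/-- the commutator subgroup is simple, contains all squares and has trivial centralizer -/
structure AlmS (G : Type*) [Group G] : Prop where
  simple : IsSimpleGroup (commutator G)
  sq : ∀ g : G, g ^ 2 ∈ commutator G
  cent : ∀ g : G, (∀ c ∈ commutator G, g * c = c * g) → g = 1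

theorem AlmS.congr {G H : Type*} [Group G] [Group H] (e : G ≃* H) (h : AlmS G) : AlmS H := by
  have he : (commutator G).map e.toMonoidHom = commutator H := by
    rw [commutator_def, commutator_def, Subgroup.map_commutator, Subgroup.map_top_of_surjective _ e.surjective]
  have hmem : ∀ g : G, e g ∈ commutator H ↔ g ∈ commutator G := by
    intro g
    rw [← he]
    constructor
    · rintro ⟨x, hx, hxg⟩
      rwa [← e.injective hxg]
    · intro hg
      exact ⟨g, hg, rfl⟩
  refine ⟨?_, ?_, ?_⟩
  · have h1 := h.simple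
    have ψ : commutator G ≃* commutator H := (e.subgroupMap (commutator G)).trans (MulEquiv.subgroupCongr he)
    have h2 : Nontrivial (commutator H) := ψ.symm.toEquiv.nontrivial
    exact IsSimpleGroup.isSimpleGroup_of_surjective ψ.toMonoidHom ψ.surjective
  · intro g
    obtain ⟨g, rfl⟩ := e.surjective g
    rw [← map_pow, hmem]
    exact h.sq g
  · intro g hg
    obtain ⟨g, rfl⟩ := e.surjective g
    rw [h.cent g, map_one]
    intro c hc
    have h1 := hg (e c) ((hmem c).2 hc)
    rw [← map_mul, ← map_mul] at h1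
    exact e.injective h1

theorem AlmS.of_simple {G : Type*} [Group G] [hG : IsSimpleGroup G] (hc : commutator G = ⊤)
    (hz : ∀ g : G, (∀ c : G, g * c = c * g) → g = 1) : AlmS G := by
  refine ⟨?_, fun g => by rw [hc]; trivial, fun g hg => hz g fun c => hg c (by rw [hc]; trivial)⟩
  rw [hc]
  exact IsSimpleGroup.isSimpleGroup_of_surjective (Subgroup.topEquiv (G := G)).symm.toMonoidHom (Subgroup.topEquiv).symm.surjective

theorem almS_perm6 : AlmS (Equiv.Perm (Fin 6)) := by
  have hc : commutator (Equiv.Perm (Fin 6)) = alternatingGroup (Fin 6) := by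
    apply alternatingGroup.commutator_perm_eq
    simp
  refine ⟨?_, ?_, ?_⟩
  · rw [hc]
    apply alternatingGroup.isSimpleGroup
    simp
  · intro g
    rw [hc, Equiv.Perm.mem_alternatingGroup, map_pow, Int.units_sq]
  · intro g hg
    ext a
    by_contra hne
    have hne' : g a ≠ a := fun h => hne (by rw [h]; rfl)
    -- two further points
    have e1 : ∀ a b : Fin 6, ∃ c : Fin 6, c ≠ a ∧ c ≠ b := by decide
    have e2 : ∀ a b c : Fin 6, ∃ d : Fin 6, d ≠ a ∧ d ≠ b ∧ d ≠ c := by decide
    obtain ⟨c, hc1, hc2⟩ := e1 a (g a)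
    obtain ⟨d, hd1, hd2, hd3⟩ := e2 a (g a) c
    have h3 : (Equiv.swap a c * Equiv.swap a d) ∈ commutator (Equiv.Perm (Fin 6)) := by
      rw [hc, Equiv.Perm.mem_alternatingGroup, map_mul, Equiv.Perm.sign_swap hc1.symm, Equiv.Perm.sign_swap hd1.symm]
      rfl
    have h4 := DFunLike.congr_fun (hg _ h3) a
    rw [Equiv.Perm.mul_apply, Equiv.Perm.mul_apply, Equiv.Perm.mul_apply, Equiv.swap_apply_left,
      Equiv.swap_apply_of_ne_of_ne hd1 hd3, Equiv.Perm.mul_apply, Equiv.swap_apply_of_ne_of_ne hne' hd2.symm,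
      Equiv.swap_apply_of_ne_of_ne hne' hc2.symm] at h4
    exact hd1 (g.injective h4)

open Matrix ClassSp AutSp

section bc
variable {m : ℕ} {K F : Type*} [Field K] [Field F] (j : K →+* F)

/-- extension of scalars -/
def bcS : symplecticGroup (Fin m) K →* symplecticGroup (Fin m) F where
  toFun s := ⟨(s : Matrix (Fin m ⊕ Fin m) (Fin m ⊕ Fin m) K).map j, SymplecticGroup.map_mem s.2 j⟩
  map_one' := by
    apply Subtype.ext
    exact Matrix.map_one j (map_zero j) (map_one j)
  map_mul' s t := by
    apply Subtype.ext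
    exact Matrix.map_mul

theorem coe_bcS (s : symplecticGroup (Fin m) K) : (bcS j s : Matrix (Fin m ⊕ Fin m) (Fin m ⊕ Fin m) F) =
    (s : Matrix (Fin m ⊕ Fin m) (Fin m ⊕ Fin m) K).map j := rfl

theorem center_iff_mat {F : Type*} [Field F] (s : symplecticGroup (Fin m) F) :
    s ∈ Subgroup.center (symplecticGroup (Fin m) F) ↔ ∃ a : F, a ^ 2 = 1 ∧
      (s : Matrix (Fin m ⊕ Fin m) (Fin m ⊕ Fin m) F) = a • 1 := by
  rw [mem_center_iff]
  refine exists_congr fun a => and_congr_right fun _ => ?_
  constructor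
  · intro h
    apply Matrix.ext_of_mulVec_single
    intro i
    rw [h, Matrix.smul_mulVec, Matrix.one_mulVec]
  · intro h v
    rw [h, Matrix.smul_mulVec, Matrix.one_mulVec]

theorem bcS_center (s : symplecticGroup (Fin m) K) : bcS j s ∈ Subgroup.center (symplecticGroup (Fin m) F) ↔
    s ∈ Subgroup.center (symplecticGroup (Fin m) K) := by
  rw [center_iff_mat, center_iff_mat]
  constructor
  · rintro ⟨a, ha, h⟩
    rcases Nat.eq_zero_or_pos m with rfl | hm
    · refine ⟨1, one_pow 2, ?_⟩
      ext i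
      exact isEmptyElim i
    set i0 : Fin m ⊕ Fin m := Sum.inl ⟨0, hm⟩
    have h1 : ∀ i k, j ((s : Matrix (Fin m ⊕ Fin m) (Fin m ⊕ Fin m) K) i k) = (a • (1 : Matrix (Fin m ⊕ Fin m) (Fin m ⊕ Fin m) F)) i k := by
      intro i k
      exact congrArg (fun M : Matrix (Fin m ⊕ Fin m) (Fin m ⊕ Fin m) F => M i k) h
    have ha' : j ((s : Matrix (Fin m ⊕ Fin m) (Fin m ⊕ Fin m) K) i0 i0) = a := by
      rw [h1, Matrix.smul_apply, Matrix.one_apply_eq, smul_eq_mul, mul_one]
    refine ⟨(s : Matrix (Fin m ⊕ Fin m) (Fin m ⊕ Fin m) K) i0 i0, j.injective (by rw [map_pow, ha', ha, map_one]), ?_⟩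
    ext i k
    apply j.injective
    rw [h1, Matrix.smul_apply, Matrix.smul_apply, smul_eq_mul, smul_eq_mul, map_mul, ha']
    congr 1
    rw [Matrix.one_apply, Matrix.one_apply]
    split_ifs
    · rw [map_one]
    · rw [map_zero]
  · rintro ⟨a, ha, h⟩
    refine ⟨j a, by rw [← map_pow, ha, map_one], ?_⟩
    rw [coe_bcS, h]
    ext i k
    rw [Matrix.map_apply, Matrix.smul_apply, Matrix.smul_apply, smul_eq_mul, smul_eq_mul, map_mul]
    congr 1
    rw [Matrix.one_apply, Matrix.one_apply]
    split_ifs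
    · rw [map_one]
    · rw [map_zero]

/-- the subfield subgroup of `PSp` -/
def iT : AutSp.T (Fin m) K →* AutSp.T (Fin m) F :=
  QuotientGroup.map _ _ (bcS j) (fun s hs => (bcS_center j s).2 hs)

theorem iT_mkT (s : symplecticGroup (Fin m) K) : iT j (mkT s) = mkT (bcS j s) := rfl

theorem iT_injective : Function.Injective (iT (m := m) j) := by
  rw [injective_iff_map_eq_one]
  intro t ht
  obtain ⟨s, rfl⟩ := mkT_surjective t
  rw [iT_mkT, ← MonoidHom.mem_ker, QuotientGroup.ker_mk', bcS_center] at ht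
  rwa [← MonoidHom.mem_ker, QuotientGroup.ker_mk']

end bc

/-- the projective symplectic groups of rank at least two -/
theorem almS_psp {m : ℕ} (hm : 2 ≤ m) {K : Type*} [Field K] [Finite K] : AlmS (AutSp.T (Fin m) K) := by
  have _i := Fintype.ofFinite K
  have hne : Nonempty (Fin m) := ⟨⟨0, by omega⟩⟩
  have hl : 2 ≤ Fintype.card (Fin m) := by rw [Fintype.card_fin]; exact hm
  by_cases h : m = 2 ∧ Fintype.card K = 2
  · obtain ⟨rfl, hK⟩ := h
    have hp : Fact (Nat.Prime 2) := ⟨Nat.prime_two⟩
    have e : ZMod 2 ≃+* K := FiniteField.ringEquivOfCardEq (by rw [ZMod.card, hK])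
    obtain ⟨ψ⟩ := Sp42.main
    -- the centre is trivial
    have hz : Subgroup.center (symplecticGroup (Fin 2) (ZMod 2)) = ⊥ := by
      rw [Subgroup.eq_bot_iff_forall]
      intro s hs
      apply ψ.injective
      rw [map_one]
      apply almS_perm6.cent
      intro c _
      obtain ⟨c, rfl⟩ := ψ.surjective c
      rw [← map_mul, ← map_mul, Subgroup.mem_center_iff.1 hs]
    have e1 : AutSp.T (Fin 2) (ZMod 2) ≃* Equiv.Perm (Fin 6) :=
      ((QuotientGroup.quotientMulEquivOfEq hz).trans QuotientGroup.quotientBot).trans ψ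
    have hbij : Function.Bijective (iT (m := 2) (e : ZMod 2 →+* K)) := by
      refine ⟨iT_injective _, fun t => ?_⟩
      obtain ⟨s, rfl⟩ := mkT_surjective t
      refine ⟨mkT (bcS (e.symm : K →+* ZMod 2) s), ?_⟩
      rw [iT_mkT]
      refine congrArg mkT (Subtype.ext ?_)
      ext i k
      exact e.apply_symm_apply _
    exact (almS_perm6.congr e1.symm).congr (MulEquiv.ofBijective _ hbij)
  · have hperf : commutator (symplecticGroup (Fin m) K) = ⊤ := by
      apply perfect_fin
      by_cases h2 : m = 2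
      · refine Or.inr (Or.inl ⟨h2, ?_⟩)
        have h3 : 1 < Fintype.card K := Fintype.one_lt_card
        have h4 : Fintype.card K ≠ 2 := fun h5 => h ⟨h2, h5⟩
        omega
      · exact Or.inl (by omega)
    have hs : IsSimpleGroup (AutSp.T (Fin m) K) := simple_of_perfect hperf
    refine AlmS.of_simple ?_ ?_
    · have h1 : (commutator (symplecticGroup (Fin m) K)).map (mkT : symplecticGroup (Fin m) K →* AutSp.T (Fin m) K) =
          commutator (AutSp.T (Fin m) K) := by
        rw [commutator_def, commutator_def, Subgroup.map_commutator, Subgroup.map_top_of_surjective _ mkT_surjective]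
      rw [← h1, hperf, Subgroup.map_top_of_surjective _ mkT_surjective]
    · intro g hg
      apply AutSp.conj_injective hl
      rw [map_one]
      ext s
      change g * s * g⁻¹ = s
      rw [hg s, mul_inv_cancel_right]

end Cfsg.Agent.BalC
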