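import Cfsg.Agent.BalC.SpA

/-!
Local balance for `PSp`: field automorphisms.
-/

set_option autoImplicit false

namespace Cfsg.Agent.BalC

open Matrix ClassSp AutSp AutLie

theorem bcS_tv {m : ℕ} {K F : Type*} [Field K] [Field F] (j : K →+* F) (v : Fin m ⊕ Fin m → K) (c : K) :
    bcS j (tv v c) = tv (fun i => j (v i)) (j c) := by
  apply Subtype.ext
  apply Matrix.ext_of_mulVec_single
  intro i
  have e : (Pi.single i (1 : F) : Fin m ⊕ Fin m → F) = fun r => j ((Pi.single i (1 : K) : Fin m ⊕ Fin m → K) r) := by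
    funext r
    by_cases h : r = i
    · subst h; simp
    · simp [Pi.single_eq_of_ne h]
  rw [e, coe_bcS, ← mapHom_mulVec, tv_mulVec, tv_mulVec, sf_mapHom]
  funext r
  simp only [Pi.add_apply, Pi.smul_apply, smul_eq_mul, map_add, map_mul]

theorem ringAut_comm {F : Type*} [Field F] [Finite F] (σ τ : RingAut F) : σ * τ = τ * σ := by
  have _i := Fintype.ofFinite F
  obtain ⟨p, f, hp, hF⟩ := FiniteField.card' F
  have hpp : Fact p.Prime := ⟨hF.1⟩
  obtain ⟨h1, _⟩ := AutPSL.ringAut_cyclic_card F hF.2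
  exact (IsCyclic.commGroup (α := RingAut F)).mul_comm σ τ

section
variable {m : ℕ} {K F : Type*} [Field K] [Field F] [Finite F] [Finite K] {j : K →+* F} {σ : RingAut F}
  (hj : ∀ x, σ x = x ↔ x ∈ Set.range j) (hm : 2 ≤ m)

include hj in
/-- restriction of a field automorphism -/
theorem exists_tauK (τ : RingAut F) : ∃ τ' : RingAut K, ∀ x, j (τ' x) = τ (j x) := by
  have hrange : ∀ x : K, ∃ y : K, j y = τ (j x) := by
    intro x
    refine (hj _).1 ?_
    have h1 : σ (τ (j x)) = (σ * τ) (j x) := rfl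
    rw [h1, ringAut_comm]
    change τ (σ (j x)) = _
    rw [(hj (j x)).2 ⟨x, rfl⟩]
  choose t ht using hrange
  let τh : K →+* K :=
    { toFun := t
      map_one' := j.injective (by rw [ht, map_one, map_one])
      map_zero' := j.injective (by rw [ht, map_zero, map_zero])
      map_mul' := fun a b => j.injective (by rw [ht, map_mul, map_mul, map_mul, ht, ht])
      map_add' := fun a b => j.injective (by rw [ht, map_add, map_add, map_add, ht, ht]) }
  exact ⟨RingEquiv.ofBijective τh (Finite.injective_iff_bijective.1 τh.injective), ht⟩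

include hj hm in
/-- restriction of a semilinear automorphism -/
theorem semi_restrict {g : gsp (Fin m) F} {τ : RingAut F} (h : dg g * ph τ * ph σ = ph σ * (dg g * ph τ)) :
    ∃ (k : gsp (Fin m) K) (τ' : RingAut K) (k0 : ↥(Cfsg.GSp m K)), (k : GL (Fin m ⊕ Fin m) K) = k0 ∧
      (∀ x, j (τ' x) = τ (j x)) ∧ dg g = dg (incl j k0) ∧
      ∀ t : AutSp.T (Fin m) K, (dg g * ph τ : MulAut (AutSp.T (Fin m) F)) (iT j t) =
        iT j ((dg k * ph τ' : MulAut (AutSp.T (Fin m) K)) t) := by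
  have hne : Nonempty (Fin m) := ⟨⟨0, by omega⟩⟩
  have h1 : dg g * ph σ = ph σ * dg g := by
    have h2 : dg g * ph σ * ph τ = ph σ * dg g * ph τ := by
      rw [mul_assoc, ph_mul, ringAut_comm, ← ph_mul, ← mul_assoc, h, ← mul_assoc]
    exact mul_right_cancel h2
  obtain ⟨b, hb⟩ := (commute_ph_iff hm σ g).1 h1
  obtain ⟨k0, hk0⟩ := exists_incl j σ hj _ hb
  obtain ⟨τ', hτ'⟩ := exists_tauK hj τ
  have hk1 : (k0 : GL (Fin m ⊕ Fin m) K) ∈ gsp (Fin m) K := (le_of_eq GSp_eq) k0.2
  refine ⟨⟨k0, hk1⟩, τ', k0, rfl, hτ', ?_, ?_⟩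
  · rw [hk0, map_mul, dg_scal, mul_one]
  · intro t
    have h2 : dg g = dg (incl j k0) := by rw [hk0, map_mul, dg_scal, mul_one]
    obtain ⟨s, rfl⟩ := mkT_surjective t
    rw [h2, ← cSp_eq, ← cSp_eq, iT_mkT, cSp_mkT, cSp_mkT, iT_mkT]
    refine congrArg mkT (Subtype.ext ?_)
    rw [coe_conjSp, coe_mapSp, coe_bcS, coe_bcS, coe_conjSp, coe_mapSp, Matrix.map_mul, Matrix.map_mul]
    have e1 : ((s : Matrix (Fin m ⊕ Fin m) (Fin m ⊕ Fin m) K).map j).map τ =
        ((s : Matrix (Fin m ⊕ Fin m) (Fin m ⊕ Fin m) K).map τ').map j := by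
      ext a b
      exact (hτ' _).symm
    rw [e1]
    rfl

omit [Finite F] [Finite K] in
include hj in
theorem exists_bcS {s : symplecticGroup (Fin m) F} (h2 : mapSp σ s = s) : ∃ s' : symplecticGroup (Fin m) K, bcS j s' = s := by
  have h3 : ∀ a b, ∃ x, j x = (s : Matrix (Fin m ⊕ Fin m) (Fin m ⊕ Fin m) F) a b := by
    intro a b
    refine (hj _).1 ?_
    exact congrArg (fun M : symplecticGroup (Fin m) F => (M : Matrix (Fin m ⊕ Fin m) (Fin m ⊕ Fin m) F) a b) h2
  choose s' hs' using h3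
  have h4 : (Matrix.of s').map j = (s : Matrix (Fin m ⊕ Fin m) (Fin m ⊕ Fin m) F) := by
    ext a b
    exact hs' a b
  have h5 : Matrix.of s' ∈ symplecticGroup (Fin m) K := by
    have h6 := s.2
    rw [← h4, mem_symplectic_iff] at h6
    rw [mem_symplectic_iff]
    intro u v
    apply j.injective
    have h7 := h6 (fun r => j (u r)) (fun r => j (v r))
    rw [← mapHom_mulVec, ← mapHom_mulVec, sf_mapHom, sf_mapHom] at h7
    exact h7
  exact ⟨⟨Matrix.of s', h5⟩, Subtype.ext h4⟩

omit [Finite F] [Finite K] in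
include hj in
/-- the fixed points in characteristic two -/
theorem fix_two [CharP F 2] {t : AutSp.T (Fin m) F} (ht : ph σ t = t) : ∃ t', iT j t' = t := by
  obtain ⟨s, rfl⟩ := mkT_surjective t
  have h1 : mkT (mapSp σ s) = mkT s := by
    rw [ph, cSp_mkT, map_one] at ht
    exact ht
  obtain ⟨s', hs'⟩ := exists_bcS hj (mkT_injective h1)
  exact ⟨mkT s', by rw [iT_mkT, hs']⟩

omit [Finite F] [Finite K] in
include hj in
/-- squares of fixed points -/
theorem fix_sq {t : AutSp.T (Fin m) F} (ht : ph σ t = t) : ∃ t', iT j t' = t ^ 2 := by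
  obtain ⟨s, rfl⟩ := mkT_surjective t
  have h1 : mkT (mapSp σ s) = mkT s := by
    rw [ph, cSp_mkT, map_one] at ht
    exact ht
  obtain ⟨a, ha, h2⟩ := mkT_eq_iff.1 h1
  have h3 : mapSp σ (s * s) = s * s := by
    apply ext_vec
    intro v
    rw [map_mul, mul_mulVec, mul_mulVec, h2, h2, Matrix.mulVec_smul, smul_smul, ← pow_two, ha, one_smul]
  obtain ⟨s', hs'⟩ := exists_bcS hj h3
  exact ⟨mkT s', by rw [iT_mkT, hs', pow_two, map_mul]⟩

omit [Finite F] [Finite K] in
include hj in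
theorem iT_fixed (t : AutSp.T (Fin m) K) : ph σ (iT j t) = iT j t := by
  obtain ⟨s, rfl⟩ := mkT_surjective t
  rw [iT_mkT, ph, cSp_mkT, map_one]
  refine congrArg mkT (Subtype.ext ?_)
  ext a b
  exact (hj _).2 ⟨_, rfl⟩

omit [Finite F] in
theorem exists_beta {α : MulAut (AutSp.T (Fin m) F)} (h : ∀ t : AutSp.T (Fin m) K, ∃ t', α (iT j t) = iT j t') :
    ∃ β : MulAut (AutSp.T (Fin m) K), ∀ t, α (iT j t) = iT j (β t) := by
  choose b hb using h
  let β : AutSp.T (Fin m) K →* AutSp.T (Fin m) K := MonoidHom.mk' b (fun s t => iT_injective j (by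
    rw [← hb, map_mul, map_mul, hb, hb, map_mul]))
  have hinj : Function.Injective β := by
    intro s t hst
    apply iT_injective j
    apply α.injective
    rw [hb, hb]
    exact congrArg _ hst
  exact ⟨MulEquiv.ofBijective β (Finite.injective_iff_bijective.1 hinj), hb⟩

include hj hm in
theorem exists_beta' {r : ℕ} [hr : Fact r.Prime] [hc : CharP F r] {α : MulAut (AutSp.T (Fin m) F)}
    (h : α * ph σ = ph σ * α) : ∃ β : MulAut (AutSp.T (Fin m) K), ∀ t, α (iT j t) = iT j (β t) := by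
  by_cases h2 : r = 2
  · subst h2
    apply exists_beta
    intro t
    have h1 : ph σ (α (iT j t)) = α (iT j t) := by
      have h3 := DFunLike.congr_fun h (iT j t)
      change α (ph σ (iT j t)) = ph σ (α (iT j t)) at h3
      rw [← h3, iT_fixed hj]
    obtain ⟨t', ht'⟩ := fix_two hj h1
    exact ⟨t', ht'.symm⟩
  · obtain ⟨g, τ, rfl⟩ := aut_classify (by rw [Fintype.card_fin]; exact hm) r (fun _ => h2) α
    obtain ⟨k, τ', k0, _, _, _, h3⟩ := semi_restrict hj hm h
    exact ⟨_, h3⟩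

/-- the simple subgroup -/
def LS (m : ℕ) (j : K →+* F) : Subgroup (AutSp.T (Fin m) F) := (commutator (AutSp.T (Fin m) K)).map (iT j)

include hm in
omit [Finite F] in
theorem simple_LS : IsSimpleGroup (LS m j) := by
  have h1 := (almS_psp hm (K := K)).simple
  have ψ : commutator (AutSp.T (Fin m) K) ≃* LS m j := Subgroup.equivMapOfInjective _ _ (iT_injective j)
  have h2 : Nontrivial (LS m j) := ψ.symm.toEquiv.nontrivial
  exact IsSimpleGroup.isSimpleGroup_of_surjective ψ.toMonoidHom ψ.surjective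

theorem comm_char {G : Type*} [Group G] (β : MulAut G) {c : G} (hc : c ∈ commutator G) : β c ∈ commutator G := by
  have h1 : (commutator G).map β.toMonoidHom = commutator G := by
    rw [commutator_def, Subgroup.map_commutator, Subgroup.map_top_of_surjective _ β.surjective]
  rw [← h1]
  exact ⟨c, hc, rfl⟩

theorem beta_one {G : Type*} [Group G] (hG : AlmS G) {β : MulAut G} (h : ∀ c ∈ commutator G, β c = c) : β = 1 := by
  ext t
  have h1 : t⁻¹ * β t = 1 := by
    apply hG.cent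
    intro c hc
    have h2 : t * c * t⁻¹ ∈ commutator G := (inferInstance : (commutator G).Normal).conj_mem _ hc _
    have h3 := h _ h2
    rw [map_mul, map_mul, map_inv, h c hc] at h3
    -- β t * c * (β t)⁻¹ = t * c * t⁻¹
    have h4 : β t * c = t * c * t⁻¹ * β t := by rw [← h3, inv_mul_cancel_right]
    calc t⁻¹ * β t * c = t⁻¹ * (β t * c) := by group
      _ = c * (t⁻¹ * β t) := by rw [h4]; group
  rw [inv_mul_eq_one] at h1
  exact h1.symm

include hj hm in
/-- stability -/
theorem LS_stable {r : ℕ} [hr : Fact r.Prime] [hc : CharP F r] {α : MulAut (AutSp.T (Fin m) F)}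
    (h : α * ph σ = ph σ * α) : ∀ l ∈ LS m j, α l ∈ LS m j := by
  obtain ⟨β, hβ⟩ := exists_beta' (r := r) hj hm h
  rintro _ ⟨c, hc, rfl⟩
  rw [hβ]
  exact ⟨_, comm_char β hc, rfl⟩

include hj hm in
/-- centralizer -/
theorem LS_cent {r : ℕ} [hr : Fact r.Prime] [hc : CharP F r] {α : MulAut (AutSp.T (Fin m) F)}
    (h : α * ph σ = ph σ * α) (hl : ∀ l ∈ LS m j, α l = l) : α ∈ Subgroup.zpowers (ph σ : MulAut (AutSp.T (Fin m) F)) := by
  have hlF : 2 ≤ Fintype.card (Fin m) := by rw [Fintype.card_fin]; exact hm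
  obtain ⟨β, hβ⟩ := exists_beta' (r := r) hj hm h
  have h1 : β = 1 := beta_one (almS_psp hm) (by
    intro c hc
    apply iT_injective j
    rw [← hβ]
    exact hl _ ⟨c, hc, rfl⟩)
  subst h1
  have hfix : ∀ t, α (iT j t) = iT j t := hβ
  -- α is semilinear
  obtain ⟨g, τ, rfl⟩ : ∃ (g : gsp (Fin m) F) (τ : RingAut F), α = dg g * ph τ := by
    by_cases h2 : r = 2
    · subst h2
      have hv0 : (Pi.single (Sum.inl ⟨0, by omega⟩) 1 : Fin m ⊕ Fin m → F) ≠ 0 := Pi.single_ne_zero_iff.2 one_ne_zero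
      refine semi_of_tv hlF α hv0 ?_
      have h3 : iT j (mkT (tv (Pi.single (Sum.inl ⟨0, by omega⟩) 1 : Fin m ⊕ Fin m → K) 1)) =
          mkT (tv (Pi.single (Sum.inl ⟨0, by omega⟩) 1 : Fin m ⊕ Fin m → F) 1) := by
        rw [iT_mkT]
        refine congrArg mkT ?_
        rw [bcS_tv, map_one]
        congr 1
        funext r
        by_cases h : r = Sum.inl ⟨0, by omega⟩
        · rw [h, Pi.single_eq_same, Pi.single_eq_same, map_one]
        · rw [Pi.single_eq_of_ne h, Pi.single_eq_of_ne h, map_zero]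
      rw [← h3, hfix, h3]
      exact ⟨_, _, rfl⟩
    · exact aut_classify hlF r (fun _ => h2) α
  obtain ⟨k, τ', k0, hk, hτ', hg, h3⟩ := semi_restrict hj hm h
  have h4 : dg k * ph τ' = (1 : MulAut (AutSp.T (Fin m) K)) := by
    ext t
    apply iT_injective j
    rw [← h3, hfix]
    rfl
  obtain ⟨h5, c, h6⟩ := (cSp_eq_one_iff hlF k τ').1 h4
  have h7 : dg g = 1 := by
    rw [hg]
    have h8 : incl j k0 = scal (Units.map (j : K →* F) c) := by
      apply Subtype.ext
      have h9 := AutPSL.map_scalar j (m := Fin m ⊕ Fin m) c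
      change Matrix.GeneralLinearGroup.map j (k0 : GL (Fin m ⊕ Fin m) K) =
        Matrix.GeneralLinearGroup.scalar (Fin m ⊕ Fin m) (Units.map (j : K →* F) c)
      rw [← h9, ← hk, h6]
      rfl
    rw [h8, dg_scal]
  rw [h7, one_mul]
  have h10 : τ ∈ Subgroup.zpowers σ := by
    apply galois_zpowers
    intro x hx
    obtain ⟨y, rfl⟩ := (hj x).1 hx
    rw [← hτ', h5]
    rfl
  obtain ⟨n, rfl⟩ := Subgroup.mem_zpowers_iff.1 h10
  refine Subgroup.mem_zpowers_iff.2 ⟨n, ?_⟩
  exact (map_zpow (phHom (Fin m) F) σ n).symm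

include hj hm in
omit [Finite F] in
theorem four_mem_LS {t : AutSp.T (Fin m) F} (ht : ph σ t = t) : t ^ 4 ∈ LS m j := by
  obtain ⟨t', ht'⟩ := fix_sq hj ht
  refine ⟨t' ^ 2, (almS_psp hm).sq t', ?_⟩
  rw [map_pow, ht', ← pow_mul]

/-- the involution with a two-dimensional eigenspace -/
def invol (m : ℕ) (i0 : Fin m) (K : Type*) [Field K] : symplecticGroup (Fin m) K :=
  ⟨Matrix.diagonal (Sum.elim (fun i => if i = i0 then -1 else 1) (fun i => if i = i0 then -1 else 1)), by
    rw [mem_symplectic_iff]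
    intro u v
    simp only [sf, Matrix.mulVec_diagonal, Sum.elim_inl, Sum.elim_inr]
    refine Finset.sum_congr rfl fun i _ => ?_
    split_ifs <;> ring⟩

theorem invol_sq (i0 : Fin m) (K : Type*) [Field K] : invol m i0 K * invol m i0 K = 1 := by
  apply Subtype.ext
  change Matrix.diagonal _ * Matrix.diagonal _ = (1 : Matrix (Fin m ⊕ Fin m) (Fin m ⊕ Fin m) K)
  rw [Matrix.diagonal_mul_diagonal, ← Matrix.diagonal_one]
  congr 1
  funext i
  rcases i with i | i <;> simp only [Sum.elim_inl, Sum.elim_inr] <;> split_ifs <;> ring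

include hm in
theorem invol_ne {K : Type*} [Field K] (h2 : (2 : K) ≠ 0) : mkT (invol m ⟨0, by omega⟩ K) ≠ 1 := by
  intro h
  rw [← MonoidHom.mem_ker, QuotientGroup.ker_mk', center_iff_mat] at h
  obtain ⟨a, ha, h1⟩ := h
  have e0 := congrArg (fun M : Matrix (Fin m ⊕ Fin m) (Fin m ⊕ Fin m) K => M (Sum.inl ⟨0, by omega⟩) (Sum.inl ⟨0, by omega⟩)) h1
  have e1 := congrArg (fun M : Matrix (Fin m ⊕ Fin m) (Fin m ⊕ Fin m) K => M (Sum.inl ⟨1, by omega⟩) (Sum.inl ⟨1, by omega⟩)) h1
  simp only [invol, Matrix.diagonal_apply_eq, Sum.elim_inl, if_true, Matrix.smul_apply, Matrix.one_apply_eq, smul_eq_mul,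
    mul_one] at e0 e1
  rw [if_neg (by simp)] at e1
  apply h2
  linear_combination e1 - e0

include hj hm in
omit [Finite F] in
theorem LS_card [Finite F] {r : ℕ} [hr : Fact r.Prime] [hc : CharP F r] {p : ℕ} [hp : Fact p.Prime] (hpr : p ≠ r)
    (hd : p ∣ Nat.card (fixS (ph σ : MulAut (AutSp.T (Fin m) F)))) : p ∣ Nat.card (LS m j) := by
  by_cases h2 : p = 2
  · have h2K : (2 : K) ≠ 0 := by
      intro h0
      have h0' : (2 : F) = 0 := by rw [← map_ofNat j, h0, map_zero]
      have : CharP F 2 := CharTwo.of_one_ne_zero_of_two_eq_zero one_ne_zero h0'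
      exact hpr (h2.trans (CharP.eq F this hc))
    have hperf : commutator (AutSp.T (Fin m) K) = ⊤ := by
      have h1 : (commutator (symplecticGroup (Fin m) K)).map (mkT : symplecticGroup (Fin m) K →* AutSp.T (Fin m) K) =
          commutator (AutSp.T (Fin m) K) := by
        rw [commutator_def, commutator_def, Subgroup.map_commutator, Subgroup.map_top_of_surjective _ mkT_surjective]
      rw [← h1, perfect_of_two (i := (⟨0, by omega⟩ : Fin m)) (j := ⟨1, by omega⟩) (by simp) h2K,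
        Subgroup.map_top_of_surjective _ mkT_surjective]
    have hmem : iT j (mkT (invol m ⟨0, by omega⟩ K)) ∈ LS m j := ⟨_, by rw [hperf]; trivial, rfl⟩
    have h3 : orderOf (⟨_, hmem⟩ : LS m j) = 2 := by
      rw [orderOf_eq_prime_iff]
      constructor
      · apply Subtype.ext
        change (iT j (mkT (invol m ⟨0, by omega⟩ K))) ^ 2 = 1
        rw [← map_pow, ← map_pow, pow_two, invol_sq, map_one, map_one]
      · intro hh
        have h4 : iT j (mkT (invol m ⟨0, by omega⟩ K)) = 1 := congrArg Subtype.val hh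
        exact invol_ne hm h2K (iT_injective j (h4.trans (map_one _).symm))
    rw [h2, ← h3]
    exact orderOf_dvd_natCard _
  · obtain ⟨t, ht⟩ := exists_prime_orderOf_dvd_card' p hd
    have h3 := four_mem_LS hj hm (mem_fixS.1 t.2)
    have h4 : (t : AutSp.T (Fin m) F) ∈ LS m j := by
      have hcop : Nat.Coprime 4 p := by
        have : Nat.Coprime 2 p := (Nat.coprime_primes Nat.prime_two hp.out).2 (Ne.symm h2)
        exact (this.mul_left this : Nat.Coprime (2 * 2) p)
      have hot : orderOf (t : AutSp.T (Fin m) F) = p := by rw [Subgroup.orderOf_coe, ht]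
      obtain ⟨n, hn⟩ := exists_pow_eq_self_of_coprime (n := 4) (x := (t : AutSp.T (Fin m) F)) (by rw [hot]; exact hcop)
      rw [← hn]
      exact Subgroup.pow_mem _ h3 n
    have h5 : orderOf (⟨(t : AutSp.T (Fin m) F), h4⟩ : LS m j) = p := by
      rw [← ht, ← Subgroup.orderOf_coe, ← Subgroup.orderOf_coe]
    rw [← h5]
    exact orderOf_dvd_natCard _

include hj hm in
/-- **balance for the standard field automorphisms of `PSp`** -/
theorem balance_ph {r : ℕ} [hr : Fact r.Prime] [hc : CharP F r] {p : ℕ} [hp : Fact p.Prime] (hpr : p ≠ r)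
    {y : MulAut (AutSp.T (Fin m) F)} (hy : y = ph σ) (hord : orderOf y = p) {A : Subgroup (MulAut (AutSp.T (Fin m) F))}
    (hinn : ∀ t : AutSp.T (Fin m) F, MulAut.conj t ∈ A) :
    Cfsg.pPrimeCore p ↥(A ⊓ Subgroup.centralizer {y}) ≠ ⊥ ↔ Nat.Coprime p (Nat.card (fixS y)) := by
  subst hy
  refine balance_iff hinn (AutSp.conj_injective (by rw [Fintype.card_fin]; exact hm)) hord (L := LS m j) ?_ (simple_LS hm) ?_ ?_
    (LS_card hj hm (r := r) hpr)
  · rintro _ ⟨c, _, rfl⟩
    exact iT_fixed hj c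
  · intro α _ h
    exact LS_stable (r := r) hj hm h
  · intro α _ h hl
    exact LS_cent (r := r) hj hm h hl

end

section four
variable {F : Type*} [Field F] [Finite F] [CharP F 2]

/-- automorphisms of odd order are semilinear -/
theorem semi_of_odd {x : MulAut (AutSp.T (Fin 2) F)} (hx : Odd (orderOf x)) : ∃ (g : gsp (Fin 2) F) (σ : RingAut F),
    x = dg g * ph σ := by
  let S : Subgroup (MulAut (AutSp.T (Fin 2) F)) :=
    { carrier := {x | ∃ (g : gsp (Fin 2) F) (σ : RingAut F), x = dg g * ph σ}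
      mul_mem' := by
        rintro _ _ ⟨g, σ, rfl⟩ ⟨h, τ, rfl⟩
        refine ⟨g * mapG σ h, σ * τ, ?_⟩
        rw [map_mul, ← ph_mul]
        calc dg g * ph σ * (dg h * ph τ) = dg g * (ph σ * dg h) * ph τ := by group
          _ = _ := by rw [ph_comm]; group
      one_mem' := ⟨1, 1, by rw [map_one, one_mul]; exact cSp_one.symm⟩
      inv_mem' := by
        rintro _ ⟨g, σ, rfl⟩
        refine ⟨mapG σ⁻¹ g⁻¹, σ⁻¹, ?_⟩
        rw [← ph_comm, _root_.mul_inv_rev, map_inv]
        congr 1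
        rw [inv_eq_iff_mul_eq_one, ph_mul, mul_inv_cancel]
        exact cSp_one }
  have hsq : x ^ 2 ∈ S := by
    rcases aut_classify_four x with ⟨g, σ, hx⟩ | ⟨g, σ, hx⟩
    · exact S.pow_mem ⟨g, σ, hx⟩ 2
    · rcases aut_classify_four (x ^ 2) with ⟨g', σ', hx'⟩ | ⟨g', σ', hx'⟩
      · exact ⟨g', σ', hx'⟩
      · have h1 : x ∈ S := by
          have h2 : x = (dg g * ph σ)⁻¹ * (dg g' * ph σ') := by
            have h3 : x = x⁻¹ * x ^ 2 := by rw [pow_two, inv_mul_cancel_left]
            have h4 : x⁻¹ = (dg g * ph σ)⁻¹ * (gT F)⁻¹ := by rw [hx, _root_.mul_inv_rev]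
            rw [h3, h4, hx', mul_assoc, inv_mul_cancel_left]
          rw [h2]
          exact S.mul_mem (S.inv_mem ⟨g, σ, rfl⟩) ⟨g', σ', rfl⟩
        exact S.pow_mem h1 2
  obtain ⟨k, hk⟩ := hx
  have h5 : x = (x ^ 2) ^ (k + 1) := by
    rw [← pow_mul]
    have : 2 * (k + 1) = orderOf x + 1 := by omega
    rw [this, pow_succ, pow_orderOf_eq_one, one_mul]
  have h6 : x ∈ S := by
    rw [h5]
    exact S.pow_mem hsq _
  exact h6

end four

/-- **balance for `PSp`** -/
theorem balance_psp {F : Type*} [Field F] [Finite F] {r : ℕ} [hr : Fact r.Prime] [hcr : CharP F r] {m : ℕ} (hm : 2 ≤ m)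
    (A : Subgroup (MulAut (Cfsg.PSp m F))) (hinn : ∀ k : Cfsg.PSp m F, MulAut.conj k ∈ A) {p : ℕ} [hp : Fact p.Prime]
    (hpr : p ≠ r) (x : MulAut (Cfsg.PSp m F)) (hord : orderOf x = p) (hnot : ¬ Cfsg.IsInnerDiagonalAutPSp x) :
    Cfsg.pPrimeCore p ↥(A ⊓ Subgroup.centralizer {x}) ≠ ⊥ ↔ (Cfsg.IsFieldAutClassPSp x ∧
      Nat.Coprime p (Nat.card ↥(MonoidHom.eqLocus x.toMonoidHom (MonoidHom.id (Cfsg.PSp m F))))) := by
  have hl : 2 ≤ Fintype.card (Fin m) := by rw [Fintype.card_fin]; exact hm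
  -- x is semilinear
  obtain ⟨g, σ, hx⟩ : ∃ (g : gsp (Fin m) F) (σ : RingAut F), x = dg g * ph σ := by
    by_cases h2 : m = 2 ∧ r = 2
    · obtain ⟨rfl, rfl⟩ := h2
      apply semi_of_odd
      rw [hord]
      exact hp.out.odd_of_ne_two hpr
    · exact aut_classify hl r (by rw [Fintype.card_fin]; exact fun h h' => h2 ⟨h, h'⟩) x
  have hσ : σ ≠ 1 := by
    rintro rfl
    apply hnot
    rw [innDiag_iff]
    refine ⟨g, ?_⟩
    rw [hx]
    have : (ph 1 : MulAut (AutSp.T (Fin m) F)) = 1 := cSp_one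
    rw [this, mul_one]
  have hσo : orderOf σ = p := by
    rw [orderOf_eq_prime_iff]
    refine ⟨?_, hσ⟩
    have h1 : x ^ p = 1 := by rw [← hord, pow_orderOf_eq_one]
    rw [hx, pow_eq_twNorm dg (mapG σ) (ph σ) (ph_comm σ), ph_pow] at h1
    exact ((cSp_eq_one_iff hl _ _).1 h1).1
  obtain ⟨B, hB⟩ := field_lang hm σ g (by rw [hσo, ← hord, ← hx, pow_orderOf_eq_one])
  have hx' : (dg B)⁻¹ * x * dg B = ph σ := by rw [hx, hB]; group
  have hfield : Cfsg.IsFieldAutClassPSp x := by
    refine ⟨(dg B)⁻¹, σ, hσ, ?_⟩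
    rw [stdField_iff, inv_inv]
    exact hx'
  rw [and_iff_right hfield]
  -- transport
  let e : AutSp.T (Fin m) F ≃* AutSp.T (Fin m) F := (dg B : MulAut (AutSp.T (Fin m) F))⁻¹
  have hye : MulAut.congr e x = ph σ := by
    rw [← hx']
    ext t
    rfl
  have hfin : Finite (AutSp.T (Fin m) F) := inferInstance
  obtain ⟨h1, h2⟩ := core_transport e p A x
  have key := balance_ph (j := (fixF σ).subtype) (mem_fixF σ) hm (r := r) hpr hye (by
      rw [← hord]
      exact orderOf_injective (MulAut.congr e).toMonoidHom (MulAut.congr e).injective x)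
    (A := A.map (MulAut.congr e).toMonoidHom) (by
      intro t
      refine ⟨MulAut.conj (e.symm t), hinn _, ?_⟩
      ext s
      change e (e.symm t * e.symm s * (e.symm t)⁻¹) = t * s * t⁻¹
      rw [map_mul, map_mul, map_inv, e.apply_symm_apply, e.apply_symm_apply])
  rw [← h2] at key
  rw [← key]
  exact not_congr h1

end Cfsg.Agent.BalC
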